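import Groth.Prelude.Def_Models
import Mathlib.Tactic

set_option autoImplicit false

namespace Groth.Agent.Lib.Helper11.NumType

open Models Finset

variable {n : ℕ} (T : Models.NumericalType n)

theorem a_symm (i j : Fin n) : T.a i j = T.a j i := by
  have := T.symm
  exact (Matrix.IsSymm.apply this j i)

theorem row_sum (i : Fin n) : ∑ j, T.a i j * T.m j = 0 := by
  have h := congrFun T.mulVec_m i
  simpa [Matrix.mulVec, dotProduct] using h

theorem col_sum (j : Fin n) : ∑ i, T.a i j * T.m i = 0 := by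
  rw [← row_sum T j]
  exact Finset.sum_congr rfl fun i _ => by rw [a_symm T i j]

theorem offDiag_nonneg' {i j : Fin n} (h : i ≠ j) : 0 ≤ T.a i j := T.offDiag_nonneg i j h

theorem offDiag_pos {i j : Fin n} (h : i ≠ j) (h' : T.a i j ≠ 0) : 0 < T.a i j :=
  lt_of_le_of_ne (T.offDiag_nonneg i j h) (Ne.symm h')

theorem w_dvd' (i j : Fin n) : T.w j ∣ T.a i j := by
  rw [a_symm T i j]; exact T.w_dvd j i

theorem w_le_of_ne_zero {i j : Fin n} (h : i ≠ j) (h' : T.a i j ≠ 0) : T.w i ≤ T.a i j :=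
  Int.le_of_dvd (offDiag_pos T h h') (T.w_dvd i j)

theorem w_le_of_ne_zero' {i j : Fin n} (h : i ≠ j) (h' : T.a i j ≠ 0) : T.w j ≤ T.a i j :=
  Int.le_of_dvd (offDiag_pos T h h') (w_dvd' T i j)

/-- partial row sums over a finset containing `i` are nonpositive -/
theorem row_partial_le (i : Fin n) (S : Finset (Fin n)) (hi : i ∈ S) :
    ∑ j ∈ S, T.a i j * T.m j ≤ 0 := by
  have h := row_sum T i
  rw [← Finset.sum_add_sum_compl S] at h
  have : 0 ≤ ∑ j ∈ Sᶜ, T.a i j * T.m j := by
    refine Finset.sum_nonneg fun j hj => ?_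
    have hij : i ≠ j := by
      rintro rfl; exact (Finset.mem_compl.1 hj) hi
    exact mul_nonneg (T.offDiag_nonneg i j hij) (T.m_pos j).le
  linarith

theorem exists_neighbor (hn : 1 < n) (i : Fin n) : ∃ j, j ≠ i ∧ T.a i j ≠ 0 := by
  have hne : ({i} : Finset (Fin n)) ≠ univ := by
    intro h
    have : (univ : Finset (Fin n)).card = 1 := by rw [← h]; simp
    simp at this; omega
  obtain ⟨i', hi', j, hj, hij⟩ := T.connected {i} (by simp) hne
  rw [Finset.mem_singleton] at hi'
  subst hi'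
  exact ⟨j, fun h => hj (by simp [h]), hij⟩

theorem diag_neg (hn : 1 < n) (i : Fin n) : T.a i i < 0 := by
  obtain ⟨j, hji, hij⟩ := exists_neighbor T hn i
  have h1 := row_partial_le T i {i, j} (by simp)
  rw [Finset.sum_pair (Ne.symm hji)] at h1
  have h2 : 0 < T.a i j * T.m j := mul_pos (offDiag_pos T (Ne.symm hji) hij) (T.m_pos j)
  have h3 := T.m_pos i
  nlinarith

end Groth.Agent.Lib.Helper11.NumType

namespace Groth.Agent.Lib.Helper11.NumType
open Models Finset
variable {n : ℕ} (T : Models.NumericalType n)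

theorem diag_eq_mul (i : Fin n) : ∃ k : ℤ, T.a i i = T.w i * k := T.w_dvd i i

theorem isMinusOne_of_contribution_neg (hn : 1 < n) (i : Fin n)
    (h : T.m i * (2 * T.w i * (T.g i - 1) - T.a i i) < 0) : T.IsMinusOne i := by
  obtain ⟨k, hk⟩ := diag_eq_mul T i
  have hd := diag_neg T hn i
  have hw := T.w_pos i
  have hm := T.m_pos i
  have hg := T.g_nonneg i
  have h1 : 2 * T.w i * (T.g i - 1) - T.a i i < 0 := by
    nlinarith
  rw [hk] at h1 hd
  have hk0 : k < 0 := by
    nlinarith
  have h2 : 2 * (T.g i - 1) - k < 0 := by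
    nlinarith
  have hg0 : T.g i = 0 := by omega
  have hk1 : k = -1 := by omega
  exact ⟨hg0, by rw [hk, hk1]; ring⟩

theorem isMinusTwo_of_contribution_zero (hn : 1 < n) (i : Fin n)
    (h : T.m i * (2 * T.w i * (T.g i - 1) - T.a i i) = 0) : T.IsMinusTwo i := by
  obtain ⟨k, hk⟩ := diag_eq_mul T i
  have hd := diag_neg T hn i
  have hw := T.w_pos i
  have hm := T.m_pos i
  have hg := T.g_nonneg i
  have h1 : 2 * T.w i * (T.g i - 1) - T.a i i = 0 := by
    rcases mul_eq_zero.1 h with h | h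
    · exact absurd h hm.ne'
    · exact h
  rw [hk] at h1 hd
  have hk0 : k < 0 := by
    nlinarith
  have h2 : 2 * (T.g i - 1) - k = 0 := by
    have : T.w i * (2 * (T.g i - 1) - k) = 0 := by linarith
    rcases mul_eq_zero.1 this with h | h
    · exact absurd h hw.ne'
    · exact h
  have hg0 : T.g i = 0 := by omega
  have hk1 : k = -2 := by omega
  exact ⟨hg0, by rw [hk, hk1]; ring⟩

end Groth.Agent.Lib.Helper11.NumType


namespace Groth.Agent.Lib.Helper11.NumType
open Models Finset
variable {n : ℕ} (T : Models.NumericalType n)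

/-- the intersection form over `ℚ` -/
noncomputable def Q (x : Fin n → ℚ) : ℚ := ∑ i, ∑ j, (T.a i j : ℚ) * x i * x j

theorem row_sum_q (i : Fin n) : ∑ j, (T.a i j : ℚ) * T.m j = 0 := by
  exact_mod_cast row_sum T i

theorem col_sum_q (j : Fin n) : ∑ i, (T.a i j : ℚ) * T.m i = 0 := by
  exact_mod_cast col_sum T j

theorem m_ne_zero_q (i : Fin n) : (T.m i : ℚ) ≠ 0 := by
  have := T.m_pos i; exact_mod_cast this.ne'

theorem Q_identity (x : Fin n → ℚ) :
    ∑ i, ∑ j, (T.a i j : ℚ) * T.m i * T.m j * (x i / T.m i - x j / T.m j) ^ 2 = -2 * Q T x := by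
  have e : ∀ i j, (T.a i j : ℚ) * T.m i * T.m j * (x i / T.m i - x j / T.m j) ^ 2 =
      (x i ^ 2 / T.m i) * ((T.a i j : ℚ) * T.m j) - 2 * ((T.a i j : ℚ) * x i * x j)
        + (x j ^ 2 / T.m j) * ((T.a i j : ℚ) * T.m i) := by
    intro i j
    have hi := m_ne_zero_q T i
    have hj := m_ne_zero_q T j
    field_simp
    ring
  simp only [e, Finset.sum_add_distrib, Finset.sum_sub_distrib, ← Finset.mul_sum]
  rw [Finset.sum_comm (f := fun i j => x j ^ 2 / T.m j * ((T.a i j : ℚ) * T.m i))]
  simp only [← Finset.mul_sum, row_sum_q, col_sum_q, mul_zero, Finset.sum_const_zero, zero_sub,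
    Q]
  ring

end Groth.Agent.Lib.Helper11.NumType

namespace Groth.Agent.Lib.Helper11.NumType
open Models Finset
variable {n : ℕ} (T : Models.NumericalType n)

theorem Q_terms_nonneg (x : Fin n → ℚ) (i j : Fin n) :
    0 ≤ (T.a i j : ℚ) * T.m i * T.m j * (x i / T.m i - x j / T.m j) ^ 2 := by
  by_cases hij : i = j
  · subst hij; simp
  · have h1 : (0 : ℚ) ≤ T.a i j := by exact_mod_cast T.offDiag_nonneg i j hij
    have h2 : (0 : ℚ) < T.m i := by exact_mod_cast T.m_pos i
    have h3 : (0 : ℚ) < T.m j := by exact_mod_cast T.m_pos j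
    positivity

theorem Q_nonpos (x : Fin n → ℚ) : Q T x ≤ 0 := by
  have h := Q_identity T x
  have : 0 ≤ ∑ i, ∑ j, (T.a i j : ℚ) * T.m i * T.m j * (x i / T.m i - x j / T.m j) ^ 2 :=
    Finset.sum_nonneg fun i _ => Finset.sum_nonneg fun j _ => Q_terms_nonneg T x i j
  linarith

theorem Q_eq_zero (x : Fin n → ℚ) (h : Q T x = 0) : ∃ c : ℚ, ∀ i, x i = c * T.m i := by
  have hid := Q_identity T x
  rw [h, mul_zero] at hid
  have hz : ∀ i j, (T.a i j : ℚ) * T.m i * T.m j * (x i / T.m i - x j / T.m j) ^ 2 = 0 := by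
    intro i j
    have h1 := (Finset.sum_eq_zero_iff_of_nonneg (fun i _ => Finset.sum_nonneg
      fun j _ => Q_terms_nonneg T x i j)).1 hid i (Finset.mem_univ _)
    exact (Finset.sum_eq_zero_iff_of_nonneg (fun j _ => Q_terms_nonneg T x i j)).1 h1 j
      (Finset.mem_univ _)
  have hadj : ∀ i j, i ≠ j → T.a i j ≠ 0 → x i / T.m i = x j / T.m j := by
    intro i j hij ha
    have h1 : (T.a i j : ℚ) ≠ 0 := by exact_mod_cast ha
    have h2 := m_ne_zero_q T i
    have h3 := m_ne_zero_q T j
    have := hz i j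
    have h4 : (x i / T.m i - x j / T.m j) ^ 2 = 0 := by
      rcases mul_eq_zero.1 this with h5 | h5
      · exfalso
        rcases mul_eq_zero.1 h5 with h6 | h6
        · rcases mul_eq_zero.1 h6 with h7 | h7
          · exact h1 h7
          · exact h2 h7
        · exact h3 h6
      · exact h5
    have := pow_eq_zero_iff (n := 2) (by norm_num) |>.1 h4
    linarith
  let i0 : Fin n := ⟨0, T.pos⟩
  refine ⟨x i0 / T.m i0, fun i => ?_⟩
  let S : Finset (Fin n) := Finset.univ.filter fun j => x j / T.m j = x i0 / T.m i0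
  have hS : S = Finset.univ := by
    by_contra hne
    obtain ⟨i', hi', j, hj, hij⟩ := T.connected S ⟨i0, by simp [S]⟩ hne
    have hne' : i' ≠ j := by rintro rfl; exact hj hi'
    have := hadj i' j hne' hij
    apply hj
    simp only [S, Finset.mem_filter, Finset.mem_univ, true_and] at hi' ⊢
    rw [← this, hi']
  have hi : i ∈ S := by rw [hS]; exact Finset.mem_univ _
  simp only [S, Finset.mem_filter, Finset.mem_univ, true_and] at hi
  have := m_ne_zero_q T i
  rw [← hi]; field_simp

theorem Q_neg (x : Fin n → ℚ) (h0 : ∃ i, x i = 0) (h1 : ∃ i, x i ≠ 0) : Q T x < 0 := by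
  rcases (Q_nonpos T x).lt_or_eq with h | h
  · exact h
  · exfalso
    obtain ⟨c, hc⟩ := Q_eq_zero T x h
    obtain ⟨i, hi⟩ := h0
    obtain ⟨j, hj⟩ := h1
    rw [hc i] at hi
    have hc0 : c = 0 := by
      rcases mul_eq_zero.1 hi with h | h
      · exact h
      · exact absurd h (m_ne_zero_q T i)
    exact hj (by rw [hc j, hc0, zero_mul])

theorem sum_extend_mul {k : ℕ} (v : Fin k → Fin n) (hv : Function.Injective v) (c : Fin k → ℚ)
    (h : Fin n → ℚ) : ∑ i, Function.extend v c 0 i * h i = ∑ p, c p * h (v p) := by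
  rw [← Finset.sum_subset (Finset.subset_univ (Finset.univ.image v))]
  · rw [Finset.sum_image (fun p _ q _ hpq => hv hpq)]
    refine Finset.sum_congr rfl fun p _ => ?_
    rw [hv.extend_apply]
  · intro i _ hi
    rw [Function.extend_apply', Pi.zero_apply, zero_mul]
    rintro ⟨p, rfl⟩
    exact hi (Finset.mem_image.2 ⟨p, Finset.mem_univ _, rfl⟩)

/-- the form restricted along an injective map `v : Fin k → Fin n` -/
theorem Q_sub {k : ℕ} (v : Fin k → Fin n) (hv : Function.Injective v) (c : Fin k → ℚ) :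
    Q T (Function.extend v c 0) = ∑ p, ∑ q, (T.a (v p) (v q) : ℚ) * c p * c q := by
  unfold Q
  have e1 : ∀ i, ∑ j, (T.a i j : ℚ) * Function.extend v c 0 i * Function.extend v c 0 j =
      Function.extend v c 0 i * ∑ j, Function.extend v c 0 j * (T.a i j : ℚ) := by
    intro i; rw [Finset.mul_sum]; exact Finset.sum_congr rfl fun j _ => by ring
  simp only [e1]
  rw [sum_extend_mul v hv c]
  refine Finset.sum_congr rfl fun p _ => ?_
  rw [sum_extend_mul v hv c, Finset.mul_sum]
  exact Finset.sum_congr rfl fun q _ => by ring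

/-- MAIN: the intersection form is negative definite on every proper set of indices. -/
theorem subQ_neg {k : ℕ} (v : Fin k → Fin n) (hv : Function.Injective v) (hk : k < n)
    (c : Fin k → ℚ) (hc : ∃ p, c p ≠ 0) :
    ∑ p, ∑ q, (T.a (v p) (v q) : ℚ) * c p * c q < 0 := by
  rw [← Q_sub T v hv]
  apply Q_neg
  · have : (Finset.univ.image v).card < (Finset.univ : Finset (Fin n)).card := by
      rw [Finset.card_image_of_injective _ hv]; simpa using hk
    obtain ⟨i, -, hi⟩ := Finset.exists_mem_notMem_of_card_lt_card this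
    refine ⟨i, ?_⟩
    rw [Function.extend_apply', Pi.zero_apply]
    rintro ⟨p, rfl⟩
    exact hi (Finset.mem_image.2 ⟨p, Finset.mem_univ _, rfl⟩)
  · obtain ⟨p, hp⟩ := hc
    exact ⟨v p, by rwa [hv.extend_apply]⟩

end Groth.Agent.Lib.Helper11.NumType
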