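import Groth.Agent.Lib.Helper11.NumTypeDArm

set_option autoImplicit false

namespace Groth.Agent.Lib.Helper11.NumType
open Models Finset
variable {n : ℕ} (T : Models.NumericalType n)

/-- simple bond -/
def ES (i j : Fin n) : Prop := T.a i j = T.w i ∧ T.w j = T.w i
/-- double bond, the first index heavy -/
def EL (i j : Fin n) : Prop := T.a i j = T.w i ∧ T.w i = 2 * T.w j
/-- double bond, the second index heavy -/
def ER (i j : Fin n) : Prop := T.a i j = T.w j ∧ T.w j = 2 * T.w i

theorem ratio_of_EL {i j : Fin n} (h : T.a i j = T.w i ∧ T.w i = 2 * T.w j) : ratio T i j = 2 := by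
  have := ratio_of_eq T 2 (i := i) (j := j) (by rw [h.1, h.2]); rw [this]; norm_num

theorem ratio_of_ER {i j : Fin n} (h : T.a i j = T.w j ∧ T.w j = 2 * T.w i) : ratio T j i = 2 := by
  have := ratio_of_eq T 2 (i := j) (j := i) (by rw [a_symm T, h.1, h.2]); rw [this]; norm_num

theorem ratio_of_EL3 {i j : Fin n} (h : T.a i j = T.w i ∧ T.w i = 3 * T.w j) : ratio T i j = 3 := by
  have := ratio_of_eq T 3 (i := i) (j := j) (by rw [h.1, h.2]); rw [this]; norm_num

theorem ratio_of_ER3 {i j : Fin n} (h : T.a i j = T.w j ∧ T.w j = 3 * T.w i) : ratio T j i = 3 := by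
  have := ratio_of_eq T 3 (i := j) (j := i) (by rw [a_symm T, h.1, h.2]); rw [this]; norm_num

theorem inj3 {i j k : Fin n} (hij : i ≠ j) (hjk : j ≠ k) (hik : i ≠ k) :
    Function.Injective ![i, j, k] := by
  intro p q h
  fin_cases p <;> fin_cases q <;> simp_all [eq_comm]

theorem chain3_types (hn : 3 < n) {i j k : Fin n} (hij : i ≠ j) (hjk : j ≠ k) (hik : i ≠ k)
    (hi : T.IsMinusTwo i) (hj : T.IsMinusTwo j) (hk : T.IsMinusTwo k)
    (h1 : T.a i j ≠ 0) (h2 : T.a j k ≠ 0) :
    T.a i k = 0 ∧ ((ES T i j ∧ ES T j k) ∨ (ES T i j ∧ EL T j k) ∨ (ES T i j ∧ ER T j k) ∨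
      (EL T i j ∧ ES T j k) ∨ (ER T i j ∧ ES T j k)) := by
  have s_ : ∀ x y, T.a x y ≠ 0 → T.a y x ≠ 0 := fun x y h => by rwa [a_symm T]
  have hinj := inj3 hij hjk hik
  have h2' : ∀ p, T.IsMinusTwo (![i, j, k] p) := fun p => by fin_cases p <;> assumption
  have r_i_j : 1 ≤ ratio T i j := ratio_ge_one T hij h1
  have r_j_i : 1 ≤ ratio T j i := ratio_ge_one T hij.symm (s_ _ _ h1)
  have r_j_k : 1 ≤ ratio T j k := ratio_ge_one T hjk h2
  have r_k_j : 1 ≤ ratio T k j := ratio_ge_one T hjk.symm (s_ _ _ h2)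
  have hz : T.a i k = 0 := by
    by_contra hz
    have r_i_k : 1 ≤ ratio T i k := ratio_ge_one T hik hz
    have r_k_i : 1 ≤ ratio T k i := ratio_ge_one T hik.symm (s_ _ _ hz)
    refine no_test T ![i, j, k] hinj hn h2' ![1, 1, 1] ?_ ⟨0, by simp⟩ ?_
    · intro p; fin_cases p <;> simp
    · intro p
      fin_cases p
      · refine ⟨[1, 2], by decide, by decide, ?_⟩
        simp
        linarith only [r_i_j, r_i_k]
      · refine ⟨[0, 2], by decide, by decide, ?_⟩
        simp
        linarith only [r_j_i, r_j_k]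
      · refine ⟨[0, 1], by decide, by decide, ?_⟩
        simp
        linarith only [r_k_i, r_k_j]
  refine ⟨hz, ?_⟩
  have hn2 : 2 < n := by omega
  rcases edge_cases T hn2 hij hi hj h1 with c1 | c1 | c1 | c1 | c1 <;>
    rcases edge_cases T hn2 hjk hj hk h2 with c2 | c2 | c2 | c2 | c2
  · exact Or.inl ⟨c1, c2⟩
  · exact Or.inr (Or.inl ⟨c1, c2⟩)
  · exact Or.inr (Or.inr (Or.inl ⟨c1, c2⟩))
  · exfalso
    have hh2 := (ratio_of_EL3 T c2)
    refine no_test T ![i, j, k] hinj hn h2' ![1, 2, 1] ?_ ⟨0, by simp⟩ ?_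
    · intro p; fin_cases p <;> simp
    · intro p
      fin_cases p
      · refine ⟨[1], by decide, by decide, ?_⟩
        simp
        linarith only [r_i_j]
      · refine ⟨[0, 2], by decide, by decide, ?_⟩
        simp
        linarith only [r_j_i, r_j_k, hh2]
      · refine ⟨[1], by decide, by decide, ?_⟩
        simp
        linarith only [r_k_j]
  · exfalso
    have hh2 := (ratio_of_ER3 T c2)
    refine no_test T ![i, j, k] hinj hn h2' ![1, 2, 3] ?_ ⟨0, by simp⟩ ?_
    · intro p; fin_cases p <;> simp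
    · intro p
      fin_cases p
      · refine ⟨[1], by decide, by decide, ?_⟩
        simp
        linarith only [r_i_j]
      · refine ⟨[0, 2], by decide, by decide, ?_⟩
        simp
        linarith only [r_j_i, r_j_k]
      · refine ⟨[1], by decide, by decide, ?_⟩
        simp
        linarith only [r_k_j, hh2]
  · exact Or.inr (Or.inr (Or.inr (Or.inl ⟨c1, c2⟩)))
  · exfalso
    have hh1 := (ratio_of_EL T c1)
    have hh2 := (ratio_of_EL T c2)
    refine no_test T ![i, j, k] hinj hn h2' ![2, 2, 1] ?_ ⟨0, by simp⟩ ?_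
    · intro p; fin_cases p <;> simp
    · intro p
      fin_cases p
      · refine ⟨[1], by decide, by decide, ?_⟩
        simp
        linarith only [r_i_j, hh1]
      · refine ⟨[0, 2], by decide, by decide, ?_⟩
        simp
        linarith only [r_j_i, r_j_k, hh2]
      · refine ⟨[1], by decide, by decide, ?_⟩
        simp
        linarith only [r_k_j]
  · exfalso
    have hh1 := (ratio_of_EL T c1)
    have hh2 := (ratio_of_ER T c2)
    refine no_test T ![i, j, k] hinj hn h2' ![1, 1, 1] ?_ ⟨0, by simp⟩ ?_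
    · intro p; fin_cases p <;> simp
    · intro p
      fin_cases p
      · refine ⟨[1], by decide, by decide, ?_⟩
        simp
        linarith only [r_i_j, hh1]
      · refine ⟨[0, 2], by decide, by decide, ?_⟩
        simp
        linarith only [r_j_i, r_j_k]
      · refine ⟨[1], by decide, by decide, ?_⟩
        simp
        linarith only [r_k_j, hh2]
  · exfalso
    have hh1 := (ratio_of_EL T c1)
    have hh2 := (ratio_of_EL3 T c2)
    refine no_test T ![i, j, k] hinj hn h2' ![1, 2, 1] ?_ ⟨0, by simp⟩ ?_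
    · intro p; fin_cases p <;> simp
    · intro p
      fin_cases p
      · refine ⟨[1], by decide, by decide, ?_⟩
        simp
        linarith only [r_i_j, hh1]
      · refine ⟨[0, 2], by decide, by decide, ?_⟩
        simp
        linarith only [r_j_i, r_j_k, hh2]
      · refine ⟨[1], by decide, by decide, ?_⟩
        simp
        linarith only [r_k_j]
  · exfalso
    have hh1 := (ratio_of_EL T c1)
    have hh2 := (ratio_of_ER3 T c2)
    refine no_test T ![i, j, k] hinj hn h2' ![1, 2, 3] ?_ ⟨0, by simp⟩ ?_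
    · intro p; fin_cases p <;> simp
    · intro p
      fin_cases p
      · refine ⟨[1], by decide, by decide, ?_⟩
        simp
        linarith only [r_i_j, hh1]
      · refine ⟨[0, 2], by decide, by decide, ?_⟩
        simp
        linarith only [r_j_i, r_j_k]
      · refine ⟨[1], by decide, by decide, ?_⟩
        simp
        linarith only [r_k_j, hh2]
  · exact Or.inr (Or.inr (Or.inr (Or.inr ⟨c1, c2⟩)))
  · exfalso
    have hh1 := (ratio_of_ER T c1)
    have hh2 := (ratio_of_EL T c2)
    refine no_test T ![i, j, k] hinj hn h2' ![1, 2, 1] ?_ ⟨0, by simp⟩ ?_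
    · intro p; fin_cases p <;> simp
    · intro p
      fin_cases p
      · refine ⟨[1], by decide, by decide, ?_⟩
        simp
        linarith only [r_i_j]
      · refine ⟨[0, 2], by decide, by decide, ?_⟩
        simp
        linarith only [r_j_i, r_j_k, hh1, hh2]
      · refine ⟨[1], by decide, by decide, ?_⟩
        simp
        linarith only [r_k_j]
  · exfalso
    have hh1 := (ratio_of_ER T c1)
    have hh2 := (ratio_of_ER T c2)
    refine no_test T ![i, j, k] hinj hn h2' ![1, 2, 2] ?_ ⟨0, by simp⟩ ?_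
    · intro p; fin_cases p <;> simp
    · intro p
      fin_cases p
      · refine ⟨[1], by decide, by decide, ?_⟩
        simp
        linarith only [r_i_j]
      · refine ⟨[0, 2], by decide, by decide, ?_⟩
        simp
        linarith only [r_j_i, r_j_k, hh1]
      · refine ⟨[1], by decide, by decide, ?_⟩
        simp
        linarith only [r_k_j, hh2]
  · exfalso
    have hh1 := (ratio_of_ER T c1)
    have hh2 := (ratio_of_EL3 T c2)
    refine no_test T ![i, j, k] hinj hn h2' ![1, 2, 1] ?_ ⟨0, by simp⟩ ?_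
    · intro p; fin_cases p <;> simp
    · intro p
      fin_cases p
      · refine ⟨[1], by decide, by decide, ?_⟩
        simp
        linarith only [r_i_j]
      · refine ⟨[0, 2], by decide, by decide, ?_⟩
        simp
        linarith only [r_j_i, r_j_k, hh1, hh2]
      · refine ⟨[1], by decide, by decide, ?_⟩
        simp
        linarith only [r_k_j]
  · exfalso
    have hh1 := (ratio_of_ER T c1)
    have hh2 := (ratio_of_ER3 T c2)
    refine no_test T ![i, j, k] hinj hn h2' ![1, 2, 3] ?_ ⟨0, by simp⟩ ?_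
    · intro p; fin_cases p <;> simp
    · intro p
      fin_cases p
      · refine ⟨[1], by decide, by decide, ?_⟩
        simp
        linarith only [r_i_j]
      · refine ⟨[0, 2], by decide, by decide, ?_⟩
        simp
        linarith only [r_j_i, r_j_k, hh1]
      · refine ⟨[1], by decide, by decide, ?_⟩
        simp
        linarith only [r_k_j, hh2]
  · exfalso
    have hh1 := (ratio_of_EL3 T c1)
    refine no_test T ![i, j, k] hinj hn h2' ![3, 2, 1] ?_ ⟨0, by simp⟩ ?_
    · intro p; fin_cases p <;> simp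
    · intro p
      fin_cases p
      · refine ⟨[1], by decide, by decide, ?_⟩
        simp
        linarith only [r_i_j, hh1]
      · refine ⟨[0, 2], by decide, by decide, ?_⟩
        simp
        linarith only [r_j_i, r_j_k]
      · refine ⟨[1], by decide, by decide, ?_⟩
        simp
        linarith only [r_k_j]
  · exfalso
    have hh1 := (ratio_of_EL3 T c1)
    have hh2 := (ratio_of_EL T c2)
    refine no_test T ![i, j, k] hinj hn h2' ![3, 2, 1] ?_ ⟨0, by simp⟩ ?_
    · intro p; fin_cases p <;> simp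
    · intro p
      fin_cases p
      · refine ⟨[1], by decide, by decide, ?_⟩
        simp
        linarith only [r_i_j, hh1]
      · refine ⟨[0, 2], by decide, by decide, ?_⟩
        simp
        linarith only [r_j_i, r_j_k, hh2]
      · refine ⟨[1], by decide, by decide, ?_⟩
        simp
        linarith only [r_k_j]
  · exfalso
    have hh1 := (ratio_of_EL3 T c1)
    have hh2 := (ratio_of_ER T c2)
    refine no_test T ![i, j, k] hinj hn h2' ![3, 2, 1] ?_ ⟨0, by simp⟩ ?_
    · intro p; fin_cases p <;> simp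
    · intro p
      fin_cases p
      · refine ⟨[1], by decide, by decide, ?_⟩
        simp
        linarith only [r_i_j, hh1]
      · refine ⟨[0, 2], by decide, by decide, ?_⟩
        simp
        linarith only [r_j_i, r_j_k]
      · refine ⟨[1], by decide, by decide, ?_⟩
        simp
        linarith only [r_k_j, hh2]
  · exfalso
    have hh1 := (ratio_of_EL3 T c1)
    have hh2 := (ratio_of_EL3 T c2)
    refine no_test T ![i, j, k] hinj hn h2' ![3, 2, 1] ?_ ⟨0, by simp⟩ ?_
    · intro p; fin_cases p <;> simp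
    · intro p
      fin_cases p
      · refine ⟨[1], by decide, by decide, ?_⟩
        simp
        linarith only [r_i_j, hh1]
      · refine ⟨[0, 2], by decide, by decide, ?_⟩
        simp
        linarith only [r_j_i, r_j_k, hh2]
      · refine ⟨[1], by decide, by decide, ?_⟩
        simp
        linarith only [r_k_j]
  · exfalso
    have hh1 := (ratio_of_EL3 T c1)
    have hh2 := (ratio_of_ER3 T c2)
    refine no_test T ![i, j, k] hinj hn h2' ![3, 2, 1] ?_ ⟨0, by simp⟩ ?_
    · intro p; fin_cases p <;> simp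
    · intro p
      fin_cases p
      · refine ⟨[1], by decide, by decide, ?_⟩
        simp
        linarith only [r_i_j, hh1]
      · refine ⟨[0, 2], by decide, by decide, ?_⟩
        simp
        linarith only [r_j_i, r_j_k]
      · refine ⟨[1], by decide, by decide, ?_⟩
        simp
        linarith only [r_k_j, hh2]
  · exfalso
    have hh1 := (ratio_of_ER3 T c1)
    refine no_test T ![i, j, k] hinj hn h2' ![1, 2, 1] ?_ ⟨0, by simp⟩ ?_
    · intro p; fin_cases p <;> simp
    · intro p
      fin_cases p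
      · refine ⟨[1], by decide, by decide, ?_⟩
        simp
        linarith only [r_i_j]
      · refine ⟨[0, 2], by decide, by decide, ?_⟩
        simp
        linarith only [r_j_i, r_j_k, hh1]
      · refine ⟨[1], by decide, by decide, ?_⟩
        simp
        linarith only [r_k_j]
  · exfalso
    have hh1 := (ratio_of_ER3 T c1)
    have hh2 := (ratio_of_EL T c2)
    refine no_test T ![i, j, k] hinj hn h2' ![1, 2, 1] ?_ ⟨0, by simp⟩ ?_
    · intro p; fin_cases p <;> simp
    · intro p
      fin_cases p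
      · refine ⟨[1], by decide, by decide, ?_⟩
        simp
        linarith only [r_i_j]
      · refine ⟨[0, 2], by decide, by decide, ?_⟩
        simp
        linarith only [r_j_i, r_j_k, hh1, hh2]
      · refine ⟨[1], by decide, by decide, ?_⟩
        simp
        linarith only [r_k_j]
  · exfalso
    have hh1 := (ratio_of_ER3 T c1)
    have hh2 := (ratio_of_ER T c2)
    refine no_test T ![i, j, k] hinj hn h2' ![1, 2, 1] ?_ ⟨0, by simp⟩ ?_
    · intro p; fin_cases p <;> simp
    · intro p
      fin_cases p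
      · refine ⟨[1], by decide, by decide, ?_⟩
        simp
        linarith only [r_i_j]
      · refine ⟨[0, 2], by decide, by decide, ?_⟩
        simp
        linarith only [r_j_i, r_j_k, hh1]
      · refine ⟨[1], by decide, by decide, ?_⟩
        simp
        linarith only [r_k_j, hh2]
  · exfalso
    have hh1 := (ratio_of_ER3 T c1)
    have hh2 := (ratio_of_EL3 T c2)
    refine no_test T ![i, j, k] hinj hn h2' ![1, 2, 1] ?_ ⟨0, by simp⟩ ?_
    · intro p; fin_cases p <;> simp
    · intro p
      fin_cases p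
      · refine ⟨[1], by decide, by decide, ?_⟩
        simp
        linarith only [r_i_j]
      · refine ⟨[0, 2], by decide, by decide, ?_⟩
        simp
        linarith only [r_j_i, r_j_k, hh1, hh2]
      · refine ⟨[1], by decide, by decide, ?_⟩
        simp
        linarith only [r_k_j]
  · exfalso
    have hh1 := (ratio_of_ER3 T c1)
    have hh2 := (ratio_of_ER3 T c2)
    refine no_test T ![i, j, k] hinj hn h2' ![1, 2, 1] ?_ ⟨0, by simp⟩ ?_
    · intro p; fin_cases p <;> simp
    · intro p
      fin_cases p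
      · refine ⟨[1], by decide, by decide, ?_⟩
        simp
        linarith only [r_i_j]
      · refine ⟨[0, 2], by decide, by decide, ?_⟩
        simp
        linarith only [r_j_i, r_j_k, hh1]
      · refine ⟨[1], by decide, by decide, ?_⟩
        simp
        linarith only [r_k_j, hh2]

end Groth.Agent.Lib.Helper11.NumType

namespace Groth.Agent.Lib.Helper11.NumType
open Models Finset
variable {n : ℕ} (T : Models.NumericalType n)

theorem A3_m {i j k : Fin n} (hij : i ≠ j) (hjk : j ≠ k) (hik : i ≠ k)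
    (hi : T.IsMinusTwo i) (hj : T.IsMinusTwo j) (hk : T.IsMinusTwo k) {w : ℤ} (hw : 0 < w)
    (wi : T.w i = w) (wj : T.w j = w) (wk : T.w k = w) (aij : T.a i j = w) (ajk : T.a j k = w) :
    T.m j ≤ 2 * T.m i ∧ T.m i + T.m k ≤ 2 * T.m j ∧ T.m j ≤ 2 * T.m k := by
  have ri := row_ineq T i [j] (by simp [hij]) w hw 2 (by rw [hi.2, wi]; ring) (fun _ => 1)
    (by simp [aij])
  have rj := row_ineq T j [i, k] (by simp [hij.symm, hjk, hik]) w hw 2 (by rw [hj.2, wj]; ring)
    (fun _ => 1) (by simp [a_symm T j i, aij, ajk])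
  have rk := row_ineq T k [j] (by simp [hjk.symm]) w hw 2 (by rw [hk.2, wk]; ring) (fun _ => 1)
    (by simp [a_symm T k j, ajk])
  simp at ri rj rk
  exact ⟨ri, by linarith, rk⟩

theorem C3_m {i j k : Fin n} (hij : i ≠ j) (hjk : j ≠ k) (hik : i ≠ k)
    (hi : T.IsMinusTwo i) (hj : T.IsMinusTwo j) (hk : T.IsMinusTwo k) {w : ℤ} (hw : 0 < w)
    (wi : T.w i = w) (wj : T.w j = w) (wk : T.w k = 2 * w) (aij : T.a i j = w) (ajk : T.a j k = 2 * w) :
    T.m j ≤ 2 * T.m i ∧ T.m i + 2 * T.m k ≤ 2 * T.m j ∧ T.m j ≤ 2 * T.m k := by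
  have ri := row_ineq T i [j] (by simp [hij]) w hw 2 (by rw [hi.2, wi]; ring) (fun _ => 1)
    (by simp [aij])
  have rj := row_ineq T j [i, k] (by simp [hij.symm, hjk, hik]) w hw 2 (by rw [hj.2, wj]; ring)
    (fun x => if x = i then 1 else 2) (by simp [a_symm T j i, aij, ajk, hik.symm])
  have rk := row_ineq T k [j] (by simp [hjk.symm]) w hw 4 (by rw [hk.2, wk]; ring) (fun _ => 2)
    (by simp [a_symm T k j, ajk])
  simp [hik.symm] at ri rj rk
  exact ⟨ri, by linarith, by linarith⟩

theorem B3_m {i j k : Fin n} (hij : i ≠ j) (hjk : j ≠ k) (hik : i ≠ k)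
    (hi : T.IsMinusTwo i) (hj : T.IsMinusTwo j) (hk : T.IsMinusTwo k) {w : ℤ} (hw : 0 < w)
    (wi : T.w i = 2 * w) (wj : T.w j = 2 * w) (wk : T.w k = w) (aij : T.a i j = 2 * w)
    (ajk : T.a j k = 2 * w) :
    T.m j ≤ 2 * T.m i ∧ T.m i + T.m k ≤ 2 * T.m j ∧ T.m j ≤ T.m k := by
  have ri := row_ineq T i [j] (by simp [hij]) w hw 4 (by rw [hi.2, wi]; ring) (fun _ => 2)
    (by simp [aij])
  have rj := row_ineq T j [i, k] (by simp [hij.symm, hjk, hik]) w hw 4 (by rw [hj.2, wj]; ring)
    (fun _ => 2) (by simp [a_symm T j i, aij, ajk])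
  have rk := row_ineq T k [j] (by simp [hjk.symm]) w hw 2 (by rw [hk.2, wk]; ring) (fun _ => 2)
    (by simp [a_symm T k j, ajk])
  simp at ri rj rk
  exact ⟨by linarith, by linarith, by linarith⟩

end Groth.Agent.Lib.Helper11.NumType

namespace Groth.Agent.Lib.Helper11.NumType
open Models Finset
variable {n : ℕ} (T : Models.NumericalType n)

theorem inj4 {x0 x1 x2 x3 : Fin n} (d01 : x0 ≠ x1) (d02 : x0 ≠ x2) (d03 : x0 ≠ x3) (d12 : x1 ≠ x2) (d13 : x1 ≠ x3) (d23 : x2 ≠ x3) :
    Function.Injective ![x0, x1, x2, x3] := by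
  intro p q h
  fin_cases p <;> fin_cases q <;> simp_all [eq_comm]

theorem inj5 {x0 x1 x2 x3 x4 : Fin n} (d01 : x0 ≠ x1) (d02 : x0 ≠ x2) (d03 : x0 ≠ x3) (d04 : x0 ≠ x4) (d12 : x1 ≠ x2) (d13 : x1 ≠ x3) (d14 : x1 ≠ x4) (d23 : x2 ≠ x3) (d24 : x2 ≠ x4) (d34 : x3 ≠ x4) :
    Function.Injective ![x0, x1, x2, x3, x4] := by
  intro p q h
  fin_cases p <;> fin_cases q <;> simp_all [eq_comm]

theorem chain4_types (hn : 4 < n) {x0 x1 x2 x3 : Fin n} (d01 : x0 ≠ x1) (d02 : x0 ≠ x2) (d03 : x0 ≠ x3) (d12 : x1 ≠ x2) (d13 : x1 ≠ x3) (d23 : x2 ≠ x3)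
    (m0 : T.IsMinusTwo x0) (m1 : T.IsMinusTwo x1) (m2 : T.IsMinusTwo x2) (m3 : T.IsMinusTwo x3) (e0 : T.a x0 x1 ≠ 0) (e1 : T.a x1 x2 ≠ 0) (e2 : T.a x2 x3 ≠ 0) :
    (T.a x0 x2 = 0 ∧ T.a x0 x3 = 0 ∧ T.a x1 x3 = 0) ∧
     ((ES T x0 x1 ∧ ES T x1 x2 ∧ ES T x2 x3) ∨
      (ES T x0 x1 ∧ ES T x1 x2 ∧ EL T x2 x3) ∨
      (ES T x0 x1 ∧ ES T x1 x2 ∧ ER T x2 x3) ∨
      (EL T x0 x1 ∧ ES T x1 x2 ∧ ES T x2 x3) ∨
      (ER T x0 x1 ∧ ES T x1 x2 ∧ ES T x2 x3) ∨
      (ES T x0 x1 ∧ EL T x1 x2 ∧ ES T x2 x3) ∨
      (ES T x0 x1 ∧ ER T x1 x2 ∧ ES T x2 x3)) := by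
  have s_ : ∀ x y, T.a x y ≠ 0 → T.a y x ≠ 0 := fun x y h => by rwa [a_symm T]
  have hinj := inj4 d01 d02 d03 d12 d13 d23
  have h2' : ∀ p, T.IsMinusTwo (![x0, x1, x2, x3] p) := fun p => by fin_cases p <;> assumption
  have r_0_1 : 1 ≤ ratio T x0 x1 := ratio_ge_one T d01 e0
  have r_1_0 : 1 ≤ ratio T x1 x0 := ratio_ge_one T d01.symm (s_ _ _ e0)
  have r_1_2 : 1 ≤ ratio T x1 x2 := ratio_ge_one T d12 e1
  have r_2_1 : 1 ≤ ratio T x2 x1 := ratio_ge_one T d12.symm (s_ _ _ e1)
  have r_2_3 : 1 ≤ ratio T x2 x3 := ratio_ge_one T d23 e2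
  have r_3_2 : 1 ≤ ratio T x3 x2 := ratio_ge_one T d23.symm (s_ _ _ e2)
  obtain ⟨z0, c0⟩ := chain3_types T (by omega) d01 d12 d02 m0 m1 m2 e0 e1
  obtain ⟨z1, c1⟩ := chain3_types T (by omega) d12 d23 d13 m1 m2 m3 e1 e2
  have zlong : T.a x0 x3 = 0 := by
    by_contra hz
    have r_0_3 : 1 ≤ ratio T x0 x3 := ratio_ge_one T d03 hz
    have r_3_0 : 1 ≤ ratio T x3 x0 := ratio_ge_one T d03.symm (s_ _ _ hz)
    refine no_test T ![x0, x1, x2, x3] hinj hn h2' ![1, 1, 1, 1] ?_ ⟨0, by simp⟩ ?_
    · intro p; fin_cases p <;> simp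
    · intro p
      fin_cases p
      · refine ⟨[3, 1], by decide, by decide, ?_⟩
        simp
        linarith only [r_0_3, r_0_1]
      · refine ⟨[0, 2], by decide, by decide, ?_⟩
        simp
        linarith only [r_1_0, r_1_2]
      · refine ⟨[1, 3], by decide, by decide, ?_⟩
        simp
        linarith only [r_2_1, r_2_3]
      · refine ⟨[2, 0], by decide, by decide, ?_⟩
        simp
        linarith only [r_3_2, r_3_0]
  refine ⟨⟨z0, zlong, z1⟩, ?_⟩
  have wp := fun i => T.w_pos i
  rcases c0 with ⟨p0, p1⟩ | ⟨p0, p1⟩ | ⟨p0, p1⟩ | ⟨p0, p1⟩ | ⟨p0, p1⟩ <;> rcases c1 with ⟨q1, q2⟩ | ⟨q1, q2⟩ | ⟨q1, q2⟩ | ⟨q1, q2⟩ | ⟨q1, q2⟩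
  · exact Or.inl ⟨p0, p1, q2⟩
  · exact Or.inr (Or.inl ⟨p0, p1, q2⟩)
  · exact Or.inr (Or.inr (Or.inl ⟨p0, p1, q2⟩))
  · exfalso; simp only [ES, EL, ER] at p1 q1; have := wp x1; have := wp x2; omega
  · exfalso; simp only [ES, EL, ER] at p1 q1; have := wp x1; have := wp x2; omega
  · exfalso; simp only [ES, EL, ER] at p1 q1; have := wp x1; have := wp x2; omega
  · exfalso; simp only [ES, EL, ER] at p1 q1; have := wp x1; have := wp x2; omega
  · exfalso; simp only [ES, EL, ER] at p1 q1; have := wp x1; have := wp x2; omega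
  · exact Or.inr (Or.inr (Or.inr (Or.inr (Or.inr (Or.inl ⟨p0, p1, q2⟩)))))
  · exfalso; simp only [ES, EL, ER] at p1 q1; have := wp x1; have := wp x2; omega
  · exfalso; simp only [ES, EL, ER] at p1 q1; have := wp x1; have := wp x2; omega
  · exfalso; simp only [ES, EL, ER] at p1 q1; have := wp x1; have := wp x2; omega
  · exfalso; simp only [ES, EL, ER] at p1 q1; have := wp x1; have := wp x2; omega
  · exfalso; simp only [ES, EL, ER] at p1 q1; have := wp x1; have := wp x2; omega
  · exact Or.inr (Or.inr (Or.inr (Or.inr (Or.inr (Or.inr (⟨p0, p1, q2⟩))))))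
  · exact Or.inr (Or.inr (Or.inr (Or.inl ⟨p0, p1, q2⟩)))
  · exfalso
    have hh0 := ratio_of_EL T p0
    have hh2 := ratio_of_EL T q2
    refine no_test T ![x0, x1, x2, x3] hinj hn h2' ![2, 2, 2, 1] ?_ ⟨0, by simp⟩ ?_
    · intro p; fin_cases p <;> simp
    · intro p
      fin_cases p
      · refine ⟨[1], by decide, by decide, ?_⟩
        simp
        linarith only [r_0_1, hh0]
      · refine ⟨[0, 2], by decide, by decide, ?_⟩
        simp
        linarith only [r_1_0, r_1_2]
      · refine ⟨[1, 3], by decide, by decide, ?_⟩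
        simp
        linarith only [r_2_1, r_2_3, hh2]
      · refine ⟨[2], by decide, by decide, ?_⟩
        simp
        linarith only [r_3_2]
  · exfalso
    have hh0 := ratio_of_EL T p0
    have hh2 := ratio_of_ER T q2
    refine no_test T ![x0, x1, x2, x3] hinj hn h2' ![1, 1, 1, 1] ?_ ⟨0, by simp⟩ ?_
    · intro p; fin_cases p <;> simp
    · intro p
      fin_cases p
      · refine ⟨[1], by decide, by decide, ?_⟩
        simp
        linarith only [r_0_1, hh0]
      · refine ⟨[0, 2], by decide, by decide, ?_⟩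
        simp
        linarith only [r_1_0, r_1_2]
      · refine ⟨[1, 3], by decide, by decide, ?_⟩
        simp
        linarith only [r_2_1, r_2_3]
      · refine ⟨[2], by decide, by decide, ?_⟩
        simp
        linarith only [r_3_2, hh2]
  · exfalso; simp only [ES, EL, ER] at p1 q1; have := wp x1; have := wp x2; omega
  · exfalso; simp only [ES, EL, ER] at p1 q1; have := wp x1; have := wp x2; omega
  · exact Or.inr (Or.inr (Or.inr (Or.inr (Or.inl ⟨p0, p1, q2⟩))))
  · exfalso
    have hh0 := ratio_of_ER T p0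
    have hh2 := ratio_of_EL T q2
    refine no_test T ![x0, x1, x2, x3] hinj hn h2' ![1, 2, 2, 1] ?_ ⟨0, by simp⟩ ?_
    · intro p; fin_cases p <;> simp
    · intro p
      fin_cases p
      · refine ⟨[1], by decide, by decide, ?_⟩
        simp
        linarith only [r_0_1]
      · refine ⟨[0, 2], by decide, by decide, ?_⟩
        simp
        linarith only [r_1_0, r_1_2, hh0]
      · refine ⟨[1, 3], by decide, by decide, ?_⟩
        simp
        linarith only [r_2_1, r_2_3, hh2]
      · refine ⟨[2], by decide, by decide, ?_⟩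
        simp
        linarith only [r_3_2]
  · exfalso
    have hh0 := ratio_of_ER T p0
    have hh2 := ratio_of_ER T q2
    refine no_test T ![x0, x1, x2, x3] hinj hn h2' ![1, 2, 2, 2] ?_ ⟨0, by simp⟩ ?_
    · intro p; fin_cases p <;> simp
    · intro p
      fin_cases p
      · refine ⟨[1], by decide, by decide, ?_⟩
        simp
        linarith only [r_0_1]
      · refine ⟨[0, 2], by decide, by decide, ?_⟩
        simp
        linarith only [r_1_0, r_1_2, hh0]
      · refine ⟨[1, 3], by decide, by decide, ?_⟩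
        simp
        linarith only [r_2_1, r_2_3]
      · refine ⟨[2], by decide, by decide, ?_⟩
        simp
        linarith only [r_3_2, hh2]
  · exfalso; simp only [ES, EL, ER] at p1 q1; have := wp x1; have := wp x2; omega
  · exfalso; simp only [ES, EL, ER] at p1 q1; have := wp x1; have := wp x2; omega

theorem chain5_types (hn : 5 < n) {x0 x1 x2 x3 x4 : Fin n} (d01 : x0 ≠ x1) (d02 : x0 ≠ x2) (d03 : x0 ≠ x3) (d04 : x0 ≠ x4) (d12 : x1 ≠ x2) (d13 : x1 ≠ x3) (d14 : x1 ≠ x4) (d23 : x2 ≠ x3) (d24 : x2 ≠ x4) (d34 : x3 ≠ x4)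
    (m0 : T.IsMinusTwo x0) (m1 : T.IsMinusTwo x1) (m2 : T.IsMinusTwo x2) (m3 : T.IsMinusTwo x3) (m4 : T.IsMinusTwo x4) (e0 : T.a x0 x1 ≠ 0) (e1 : T.a x1 x2 ≠ 0) (e2 : T.a x2 x3 ≠ 0) (e3 : T.a x3 x4 ≠ 0) :
    (T.a x0 x2 = 0 ∧ T.a x0 x3 = 0 ∧ T.a x0 x4 = 0 ∧ T.a x1 x3 = 0 ∧ T.a x1 x4 = 0 ∧ T.a x2 x4 = 0) ∧
     ((ES T x0 x1 ∧ ES T x1 x2 ∧ ES T x2 x3 ∧ ES T x3 x4) ∨
      (ES T x0 x1 ∧ ES T x1 x2 ∧ ES T x2 x3 ∧ EL T x3 x4) ∨
      (ES T x0 x1 ∧ ES T x1 x2 ∧ ES T x2 x3 ∧ ER T x3 x4) ∨
      (EL T x0 x1 ∧ ES T x1 x2 ∧ ES T x2 x3 ∧ ES T x3 x4) ∨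
      (ER T x0 x1 ∧ ES T x1 x2 ∧ ES T x2 x3 ∧ ES T x3 x4)) := by
  have s_ : ∀ x y, T.a x y ≠ 0 → T.a y x ≠ 0 := fun x y h => by rwa [a_symm T]
  have hinj := inj5 d01 d02 d03 d04 d12 d13 d14 d23 d24 d34
  have h2' : ∀ p, T.IsMinusTwo (![x0, x1, x2, x3, x4] p) := fun p => by fin_cases p <;> assumption
  have r_0_1 : 1 ≤ ratio T x0 x1 := ratio_ge_one T d01 e0
  have r_1_0 : 1 ≤ ratio T x1 x0 := ratio_ge_one T d01.symm (s_ _ _ e0)
  have r_1_2 : 1 ≤ ratio T x1 x2 := ratio_ge_one T d12 e1
  have r_2_1 : 1 ≤ ratio T x2 x1 := ratio_ge_one T d12.symm (s_ _ _ e1)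
  have r_2_3 : 1 ≤ ratio T x2 x3 := ratio_ge_one T d23 e2
  have r_3_2 : 1 ≤ ratio T x3 x2 := ratio_ge_one T d23.symm (s_ _ _ e2)
  have r_3_4 : 1 ≤ ratio T x3 x4 := ratio_ge_one T d34 e3
  have r_4_3 : 1 ≤ ratio T x4 x3 := ratio_ge_one T d34.symm (s_ _ _ e3)
  obtain ⟨z0, c0⟩ := chain4_types T (by omega) d01 d02 d03 d12 d13 d23 m0 m1 m2 m3 e0 e1 e2
  obtain ⟨z1, c1⟩ := chain4_types T (by omega) d12 d13 d14 d23 d24 d34 m1 m2 m3 m4 e1 e2 e3
  have zlong : T.a x0 x4 = 0 := by
    by_contra hz
    have r_0_4 : 1 ≤ ratio T x0 x4 := ratio_ge_one T d04 hz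
    have r_4_0 : 1 ≤ ratio T x4 x0 := ratio_ge_one T d04.symm (s_ _ _ hz)
    refine no_test T ![x0, x1, x2, x3, x4] hinj hn h2' ![1, 1, 1, 1, 1] ?_ ⟨0, by simp⟩ ?_
    · intro p; fin_cases p <;> simp
    · intro p
      fin_cases p
      · refine ⟨[4, 1], by decide, by decide, ?_⟩
        simp
        linarith only [r_0_4, r_0_1]
      · refine ⟨[0, 2], by decide, by decide, ?_⟩
        simp
        linarith only [r_1_0, r_1_2]
      · refine ⟨[1, 3], by decide, by decide, ?_⟩
        simp
        linarith only [r_2_1, r_2_3]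
      · refine ⟨[2, 4], by decide, by decide, ?_⟩
        simp
        linarith only [r_3_2, r_3_4]
      · refine ⟨[3, 0], by decide, by decide, ?_⟩
        simp
        linarith only [r_4_3, r_4_0]
  refine ⟨⟨z0.1, z0.2.1, zlong, z0.2.2, z1.2.1, z1.2.2⟩, ?_⟩
  have wp := fun i => T.w_pos i
  rcases c0 with ⟨p0, p1, p2⟩ | ⟨p0, p1, p2⟩ | ⟨p0, p1, p2⟩ | ⟨p0, p1, p2⟩ | ⟨p0, p1, p2⟩ | ⟨p0, p1, p2⟩ | ⟨p0, p1, p2⟩ <;> rcases c1 with ⟨q1, q2, q3⟩ | ⟨q1, q2, q3⟩ | ⟨q1, q2, q3⟩ | ⟨q1, q2, q3⟩ | ⟨q1, q2, q3⟩ | ⟨q1, q2, q3⟩ | ⟨q1, q2, q3⟩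
  · exact Or.inl ⟨p0, p1, p2, q3⟩
  · exact Or.inr (Or.inl ⟨p0, p1, p2, q3⟩)
  · exact Or.inr (Or.inr (Or.inl ⟨p0, p1, p2, q3⟩))
  · exfalso; simp only [ES, EL, ER] at p1 q1; have := wp x1; have := wp x2; omega
  · exfalso; simp only [ES, EL, ER] at p1 q1; have := wp x1; have := wp x2; omega
  · exfalso; simp only [ES, EL, ER] at p2 q2; have := wp x2; have := wp x3; omega
  · exfalso; simp only [ES, EL, ER] at p2 q2; have := wp x2; have := wp x3; omega
  · exfalso; simp only [ES, EL, ER] at p2 q2; have := wp x2; have := wp x3; omega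
  · exfalso; simp only [ES, EL, ER] at p2 q2; have := wp x2; have := wp x3; omega
  · exfalso; simp only [ES, EL, ER] at p2 q2; have := wp x2; have := wp x3; omega
  · exfalso; simp only [ES, EL, ER] at p1 q1; have := wp x1; have := wp x2; omega
  · exfalso; simp only [ES, EL, ER] at p1 q1; have := wp x1; have := wp x2; omega
  · exfalso
    have hh2 := ratio_of_EL T p2
    refine no_test T ![x0, x1, x2, x3, x4] hinj hn h2' ![1, 2, 3, 2, 1] ?_ ⟨0, by simp⟩ ?_
    · intro p; fin_cases p <;> simp
    · intro p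
      fin_cases p
      · refine ⟨[1], by decide, by decide, ?_⟩
        simp
        linarith only [r_0_1]
      · refine ⟨[0, 2], by decide, by decide, ?_⟩
        simp
        linarith only [r_1_0, r_1_2]
      · refine ⟨[1, 3], by decide, by decide, ?_⟩
        simp
        linarith only [r_2_1, r_2_3, hh2]
      · refine ⟨[2, 4], by decide, by decide, ?_⟩
        simp
        linarith only [r_3_2, r_3_4]
      · refine ⟨[3], by decide, by decide, ?_⟩
        simp
        linarith only [r_4_3]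
  · exfalso; simp only [ES, EL, ER] at p2 q2; have := wp x2; have := wp x3; omega
  · exfalso; simp only [ES, EL, ER] at p2 q2; have := wp x2; have := wp x3; omega
  · exfalso; simp only [ES, EL, ER] at p2 q2; have := wp x2; have := wp x3; omega
  · exfalso; simp only [ES, EL, ER] at p2 q2; have := wp x2; have := wp x3; omega
  · exfalso; simp only [ES, EL, ER] at p1 q1; have := wp x1; have := wp x2; omega
  · exfalso; simp only [ES, EL, ER] at p1 q1; have := wp x1; have := wp x2; omega
  · exfalso; simp only [ES, EL, ER] at p2 q2; have := wp x2; have := wp x3; omega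
  · exfalso
    have hh2 := ratio_of_ER T p2
    refine no_test T ![x0, x1, x2, x3, x4] hinj hn h2' ![1, 2, 3, 4, 2] ?_ ⟨0, by simp⟩ ?_
    · intro p; fin_cases p <;> simp
    · intro p
      fin_cases p
      · refine ⟨[1], by decide, by decide, ?_⟩
        simp
        linarith only [r_0_1]
      · refine ⟨[0, 2], by decide, by decide, ?_⟩
        simp
        linarith only [r_1_0, r_1_2]
      · refine ⟨[1, 3], by decide, by decide, ?_⟩
        simp
        linarith only [r_2_1, r_2_3]
      · refine ⟨[2, 4], by decide, by decide, ?_⟩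
        simp
        linarith only [r_3_2, r_3_4, hh2]
      · refine ⟨[3], by decide, by decide, ?_⟩
        simp
        linarith only [r_4_3]
  · exact Or.inr (Or.inr (Or.inr (Or.inl ⟨p0, p1, p2, q3⟩)))
  · exfalso
    have hh0 := ratio_of_EL T p0
    have hh3 := ratio_of_EL T q3
    refine no_test T ![x0, x1, x2, x3, x4] hinj hn h2' ![2, 2, 2, 2, 1] ?_ ⟨0, by simp⟩ ?_
    · intro p; fin_cases p <;> simp
    · intro p
      fin_cases p
      · refine ⟨[1], by decide, by decide, ?_⟩
        simp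
        linarith only [r_0_1, hh0]
      · refine ⟨[0, 2], by decide, by decide, ?_⟩
        simp
        linarith only [r_1_0, r_1_2]
      · refine ⟨[1, 3], by decide, by decide, ?_⟩
        simp
        linarith only [r_2_1, r_2_3]
      · refine ⟨[2, 4], by decide, by decide, ?_⟩
        simp
        linarith only [r_3_2, r_3_4, hh3]
      · refine ⟨[3], by decide, by decide, ?_⟩
        simp
        linarith only [r_4_3]
  · exfalso
    have hh0 := ratio_of_EL T p0
    have hh3 := ratio_of_ER T q3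
    refine no_test T ![x0, x1, x2, x3, x4] hinj hn h2' ![1, 1, 1, 1, 1] ?_ ⟨0, by simp⟩ ?_
    · intro p; fin_cases p <;> simp
    · intro p
      fin_cases p
      · refine ⟨[1], by decide, by decide, ?_⟩
        simp
        linarith only [r_0_1, hh0]
      · refine ⟨[0, 2], by decide, by decide, ?_⟩
        simp
        linarith only [r_1_0, r_1_2]
      · refine ⟨[1, 3], by decide, by decide, ?_⟩
        simp
        linarith only [r_2_1, r_2_3]
      · refine ⟨[2, 4], by decide, by decide, ?_⟩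
        simp
        linarith only [r_3_2, r_3_4]
      · refine ⟨[3], by decide, by decide, ?_⟩
        simp
        linarith only [r_4_3, hh3]
  · exfalso; simp only [ES, EL, ER] at p1 q1; have := wp x1; have := wp x2; omega
  · exfalso; simp only [ES, EL, ER] at p1 q1; have := wp x1; have := wp x2; omega
  · exfalso; simp only [ES, EL, ER] at p2 q2; have := wp x2; have := wp x3; omega
  · exfalso; simp only [ES, EL, ER] at p2 q2; have := wp x2; have := wp x3; omega
  · exact Or.inr (Or.inr (Or.inr (Or.inr (⟨p0, p1, p2, q3⟩))))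
  · exfalso
    have hh0 := ratio_of_ER T p0
    have hh3 := ratio_of_EL T q3
    refine no_test T ![x0, x1, x2, x3, x4] hinj hn h2' ![1, 2, 2, 2, 1] ?_ ⟨0, by simp⟩ ?_
    · intro p; fin_cases p <;> simp
    · intro p
      fin_cases p
      · refine ⟨[1], by decide, by decide, ?_⟩
        simp
        linarith only [r_0_1]
      · refine ⟨[0, 2], by decide, by decide, ?_⟩
        simp
        linarith only [r_1_0, r_1_2, hh0]
      · refine ⟨[1, 3], by decide, by decide, ?_⟩
        simp
        linarith only [r_2_1, r_2_3]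
      · refine ⟨[2, 4], by decide, by decide, ?_⟩
        simp
        linarith only [r_3_2, r_3_4, hh3]
      · refine ⟨[3], by decide, by decide, ?_⟩
        simp
        linarith only [r_4_3]
  · exfalso
    have hh0 := ratio_of_ER T p0
    have hh3 := ratio_of_ER T q3
    refine no_test T ![x0, x1, x2, x3, x4] hinj hn h2' ![1, 2, 2, 2, 2] ?_ ⟨0, by simp⟩ ?_
    · intro p; fin_cases p <;> simp
    · intro p
      fin_cases p
      · refine ⟨[1], by decide, by decide, ?_⟩
        simp
        linarith only [r_0_1]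
      · refine ⟨[0, 2], by decide, by decide, ?_⟩
        simp
        linarith only [r_1_0, r_1_2, hh0]
      · refine ⟨[1, 3], by decide, by decide, ?_⟩
        simp
        linarith only [r_2_1, r_2_3]
      · refine ⟨[2, 4], by decide, by decide, ?_⟩
        simp
        linarith only [r_3_2, r_3_4]
      · refine ⟨[3], by decide, by decide, ?_⟩
        simp
        linarith only [r_4_3, hh3]
  · exfalso; simp only [ES, EL, ER] at p1 q1; have := wp x1; have := wp x2; omega
  · exfalso; simp only [ES, EL, ER] at p1 q1; have := wp x1; have := wp x2; omega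
  · exfalso; simp only [ES, EL, ER] at p2 q2; have := wp x2; have := wp x3; omega
  · exfalso; simp only [ES, EL, ER] at p2 q2; have := wp x2; have := wp x3; omega
  · exfalso; simp only [ES, EL, ER] at p1 q1; have := wp x1; have := wp x2; omega
  · exfalso; simp only [ES, EL, ER] at p1 q1; have := wp x1; have := wp x2; omega
  · exfalso; simp only [ES, EL, ER] at p1 q1; have := wp x1; have := wp x2; omega
  · exfalso
    have hh1 := ratio_of_EL T p1
    refine no_test T ![x0, x1, x2, x3, x4] hinj hn h2' ![2, 4, 3, 2, 1] ?_ ⟨0, by simp⟩ ?_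
    · intro p; fin_cases p <;> simp
    · intro p
      fin_cases p
      · refine ⟨[1], by decide, by decide, ?_⟩
        simp
        linarith only [r_0_1]
      · refine ⟨[0, 2], by decide, by decide, ?_⟩
        simp
        linarith only [r_1_0, r_1_2, hh1]
      · refine ⟨[1, 3], by decide, by decide, ?_⟩
        simp
        linarith only [r_2_1, r_2_3]
      · refine ⟨[2, 4], by decide, by decide, ?_⟩
        simp
        linarith only [r_3_2, r_3_4]
      · refine ⟨[3], by decide, by decide, ?_⟩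
        simp
        linarith only [r_4_3]
  · exfalso; simp only [ES, EL, ER] at p1 q1; have := wp x1; have := wp x2; omega
  · exfalso; simp only [ES, EL, ER] at p1 q1; have := wp x1; have := wp x2; omega
  · exfalso; simp only [ES, EL, ER] at p1 q1; have := wp x1; have := wp x2; omega
  · exfalso; simp only [ES, EL, ER] at p1 q1; have := wp x1; have := wp x2; omega
  · exfalso; simp only [ES, EL, ER] at p1 q1; have := wp x1; have := wp x2; omega
  · exfalso; simp only [ES, EL, ER] at p1 q1; have := wp x1; have := wp x2; omega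
  · exfalso; simp only [ES, EL, ER] at p1 q1; have := wp x1; have := wp x2; omega
  · exfalso
    have hh1 := ratio_of_ER T p1
    refine no_test T ![x0, x1, x2, x3, x4] hinj hn h2' ![1, 2, 3, 2, 1] ?_ ⟨0, by simp⟩ ?_
    · intro p; fin_cases p <;> simp
    · intro p
      fin_cases p
      · refine ⟨[1], by decide, by decide, ?_⟩
        simp
        linarith only [r_0_1]
      · refine ⟨[0, 2], by decide, by decide, ?_⟩
        simp
        linarith only [r_1_0, r_1_2]
      · refine ⟨[1, 3], by decide, by decide, ?_⟩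
        simp
        linarith only [r_2_1, r_2_3, hh1]
      · refine ⟨[2, 4], by decide, by decide, ?_⟩
        simp
        linarith only [r_3_2, r_3_4]
      · refine ⟨[3], by decide, by decide, ?_⟩
        simp
        linarith only [r_4_3]
  · exfalso; simp only [ES, EL, ER] at p1 q1; have := wp x1; have := wp x2; omega
  · exfalso; simp only [ES, EL, ER] at p1 q1; have := wp x1; have := wp x2; omega

end Groth.Agent.Lib.Helper11.NumType
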