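import Groth.Agent.Lib.Helper11.NumTypeTest

set_option autoImplicit false

namespace Groth.Agent.Lib.Helper11.NumType
open Models Finset
variable {n : ℕ} (T : Models.NumericalType n)

theorem ratio_ge_one_of_inj {k : ℕ} {u : Fin k → Fin n} (hu : Function.Injective u) {p q : Fin k}
    (hpq : p ≠ q) (ha : T.a (u p) (u q) ≠ 0) : 1 ≤ ratio T (u p) (u q) :=
  ratio_ge_one T (fun h => hpq (hu h)) ha

/-- D-type arm: a chain `u 0 - u 1 - ... - u s` with two more indices `u (s+1)`, `u (s+2)`
joined to `u s`; then the first bond is not multiple. -/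
theorem d_arm_ratio {s : ℕ} (hs : 1 ≤ s) (u : Fin (s + 3) → Fin n) (hu : Function.Injective u)
    (hk : s + 3 < n) (h2 : ∀ p, T.IsMinusTwo (u p))
    (hadj : ∀ (i j : ℕ) (hi : i < s + 3) (hj : j < s + 3),
      ((j = i + 1 ∧ j ≤ s) ∨ (i = j + 1 ∧ i ≤ s) ∨ (i = s ∧ j = s + 1) ∨ (i = s + 1 ∧ j = s) ∨
        (i = s ∧ j = s + 2) ∨ (i = s + 2 ∧ j = s)) → T.a (u ⟨i, hi⟩) (u ⟨j, hj⟩) ≠ 0) :
    ratio T (u ⟨0, by omega⟩) (u ⟨1, by omega⟩) < 2 ∧ ratio T (u ⟨1, by omega⟩) (u ⟨0, by omega⟩) < 2 := by
  have E : ∀ (i j : ℕ) (hi : i < s + 3) (hj : j < s + 3),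
      ((j = i + 1 ∧ j ≤ s) ∨ (i = j + 1 ∧ i ≤ s) ∨ (i = s ∧ j = s + 1) ∨ (i = s + 1 ∧ j = s) ∨
        (i = s ∧ j = s + 2) ∨ (i = s + 2 ∧ j = s)) → 1 ≤ ratio T (u ⟨i, hi⟩) (u ⟨j, hj⟩) := by
    intro i j hi hj h
    refine ratio_ge_one_of_inj T hu ?_ (hadj i j hi hj h)
    intro he; rw [Fin.mk.injEq] at he; omega
  constructor
  · by_contra hA
    push Not at hA
    refine no_test T u hu hk h2 (fun p => if p.val ≤ s then (2 : ℚ) else 1) ?_ ⟨⟨0, by omega⟩, by simp⟩ ?_
    · intro p; split_ifs <;> norm_num
    · rintro ⟨p, hp⟩
      by_cases h0 : p = 0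
      · subst h0
        refine ⟨[⟨1, by omega⟩], by simp, by simp, ?_⟩
        simp only [List.map_cons, List.map_nil, List.sum_cons, List.sum_nil]
        split_ifs <;> first | omega | linarith | contradiction
      by_cases hps : p < s
      · refine ⟨[⟨p - 1, by omega⟩, ⟨p + 1, by omega⟩], ?_, ?_, ?_⟩
        · simp only [List.nodup_cons, List.mem_cons, List.not_mem_nil, List.nodup_nil, or_false,
            Fin.mk.injEq, and_true, not_or, not_false_eq_true]; omega
        · simp only [List.mem_cons, List.not_mem_nil, or_false, Fin.mk.injEq, not_or]; omega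
        · simp only [List.map_cons, List.map_nil, List.sum_cons, List.sum_nil]
          have e1 := E p (p - 1) hp (by omega) (by omega)
          have e2 := E p (p + 1) hp (by omega) (by omega)
          split_ifs <;> first | omega | linarith | contradiction
      by_cases hpe : p = s
      · subst hpe
        refine ⟨[⟨p - 1, by omega⟩, ⟨p + 1, by omega⟩, ⟨p + 2, by omega⟩], ?_, ?_, ?_⟩
        · simp only [List.nodup_cons, List.mem_cons, List.not_mem_nil, List.nodup_nil, or_false,
            Fin.mk.injEq, and_true, not_or, not_false_eq_true]; omega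
        · simp only [List.mem_cons, List.not_mem_nil, or_false, Fin.mk.injEq, not_or]; omega
        · simp only [List.map_cons, List.map_nil, List.sum_cons, List.sum_nil]
          have e1 := E p (p - 1) hp (by omega) (by omega)
          have e2 := E p (p + 1) hp (by omega) (by omega)
          have e3 := E p (p + 2) hp (by omega) (by omega)
          split_ifs <;> first | omega | linarith | contradiction
      · refine ⟨[⟨s, by omega⟩], by simp, ?_, ?_⟩
        · simp only [List.mem_cons, List.not_mem_nil, or_false, Fin.mk.injEq, not_or]; omega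
        · simp only [List.map_cons, List.map_nil, List.sum_cons, List.sum_nil]
          have e1 := E p s hp (by omega) (by omega)
          split_ifs <;> first | omega | linarith | contradiction
  · by_contra hB
    push Not at hB
    refine no_test T u hu hk h2 (fun p => if p.val = 0 then (1 : ℚ) else if p.val ≤ s then 2 else 1)
      ?_ ⟨⟨0, by omega⟩, by simp⟩ ?_
    · intro p; split_ifs <;> norm_num
    · rintro ⟨p, hp⟩
      by_cases h0 : p = 0
      · subst h0
        refine ⟨[⟨1, by omega⟩], by simp, by simp, ?_⟩
        simp only [List.map_cons, List.map_nil, List.sum_cons, List.sum_nil]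
        have e1 := E 0 1 hp (by omega) (by omega)
        split_ifs <;> first | omega | linarith | contradiction
      by_cases h1 : p = 1
      · subst h1
        by_cases hs1 : s = 1
        · refine ⟨[⟨0, by omega⟩, ⟨2, by omega⟩, ⟨3, by omega⟩], ?_, ?_, ?_⟩
          · simp only [List.nodup_cons, List.mem_cons, List.not_mem_nil, List.nodup_nil, or_false,
              Fin.mk.injEq, and_true, not_or, not_false_eq_true]; omega
          · simp only [List.mem_cons, List.not_mem_nil, or_false, Fin.mk.injEq, not_or]; omega
          · simp only [List.map_cons, List.map_nil, List.sum_cons, List.sum_nil]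
            have e2 := E 1 2 hp (by omega) (by omega)
            have e3 := E 1 3 hp (by omega) (by omega)
            split_ifs <;> first | omega | linarith | contradiction
        · refine ⟨[⟨0, by omega⟩, ⟨2, by omega⟩], ?_, ?_, ?_⟩
          · simp only [List.nodup_cons, List.mem_cons, List.not_mem_nil, List.nodup_nil, or_false,
              Fin.mk.injEq, and_true, not_or, not_false_eq_true]; omega
          · simp only [List.mem_cons, List.not_mem_nil, or_false, Fin.mk.injEq, not_or]; omega
          · simp only [List.map_cons, List.map_nil, List.sum_cons, List.sum_nil]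
            have e2 := E 1 2 hp (by omega) (by omega)
            split_ifs <;> first | omega | linarith | contradiction
      by_cases hps : p < s
      · refine ⟨[⟨p - 1, by omega⟩, ⟨p + 1, by omega⟩], ?_, ?_, ?_⟩
        · simp only [List.nodup_cons, List.mem_cons, List.not_mem_nil, List.nodup_nil, or_false,
            Fin.mk.injEq, and_true, not_or, not_false_eq_true]; omega
        · simp only [List.mem_cons, List.not_mem_nil, or_false, Fin.mk.injEq, not_or]; omega
        · simp only [List.map_cons, List.map_nil, List.sum_cons, List.sum_nil]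
          have e1 := E p (p - 1) hp (by omega) (by omega)
          have e2 := E p (p + 1) hp (by omega) (by omega)
          split_ifs <;> first | omega | linarith | contradiction
      by_cases hpe : p = s
      · subst hpe
        refine ⟨[⟨p - 1, by omega⟩, ⟨p + 1, by omega⟩, ⟨p + 2, by omega⟩], ?_, ?_, ?_⟩
        · simp only [List.nodup_cons, List.mem_cons, List.not_mem_nil, List.nodup_nil, or_false,
            Fin.mk.injEq, and_true, not_or, not_false_eq_true]; omega
        · simp only [List.mem_cons, List.not_mem_nil, or_false, Fin.mk.injEq, not_or]; omega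
        · simp only [List.map_cons, List.map_nil, List.sum_cons, List.sum_nil]
          have e1 := E p (p - 1) hp (by omega) (by omega)
          have e2 := E p (p + 1) hp (by omega) (by omega)
          have e3 := E p (p + 2) hp (by omega) (by omega)
          split_ifs <;> first | omega | linarith | contradiction
      · refine ⟨[⟨s, by omega⟩], by simp, ?_, ?_⟩
        · simp only [List.mem_cons, List.not_mem_nil, or_false, Fin.mk.injEq, not_or]; omega
        · simp only [List.map_cons, List.map_nil, List.sum_cons, List.sum_nil]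
          have e1 := E p s hp (by omega) (by omega)
          split_ifs <;> first | omega | linarith | contradiction

theorem d_arm_simple {s : ℕ} (hs : 1 ≤ s) (u : Fin (s + 3) → Fin n) (hu : Function.Injective u)
    (hk : s + 3 < n) (h2 : ∀ p, T.IsMinusTwo (u p))
    (hadj : ∀ (i j : ℕ) (hi : i < s + 3) (hj : j < s + 3),
      ((j = i + 1 ∧ j ≤ s) ∨ (i = j + 1 ∧ i ≤ s) ∨ (i = s ∧ j = s + 1) ∨ (i = s + 1 ∧ j = s) ∨
        (i = s ∧ j = s + 2) ∨ (i = s + 2 ∧ j = s)) → T.a (u ⟨i, hi⟩) (u ⟨j, hj⟩) ≠ 0) :
    T.a (u ⟨0, by omega⟩) (u ⟨1, by omega⟩) = T.w (u ⟨0, by omega⟩) ∧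
      T.w (u ⟨1, by omega⟩) = T.w (u ⟨0, by omega⟩) := by
  obtain ⟨h1, h2'⟩ := d_arm_ratio T hs u hu hk h2 hadj
  refine simple_of_ratio_lt T (by omega) (fun h => ?_) (h2 _) (h2 _) (hadj 0 1 _ _ (by omega)) h1 h2'
  have := hu h; rw [Fin.mk.injEq] at this; omega

end Groth.Agent.Lib.Helper11.NumType

namespace Groth.Agent.Lib.Helper11.NumType
open Models Finset
variable {n : ℕ} (T : Models.NumericalType n)

/-- the inequality given by a row of `a m = 0` restricted to known entries -/
theorem row_ineq (p : Fin n) (l : List (Fin n)) (hl : (p :: l).Nodup) (W : ℤ) (hW : 0 < W) (e : ℤ)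
    (hd : T.a p p = -(e * W)) (c : Fin n → ℤ) (hc : ∀ q ∈ l, T.a p q = c q * W) :
    (l.map fun q => c q * T.m q).sum ≤ e * T.m p := by
  have h := row_list_le T p (p :: l) hl (List.mem_cons_self ..)
  simp only [List.map_cons, List.sum_cons] at h
  have e1 : (l.map fun q => T.a p q * T.m q).sum = W * (l.map fun q => c q * T.m q).sum := by
    rw [← List.sum_map_mul_left]
    congr 1
    apply List.map_congr_left
    intro q hq
    rw [hc q hq]; ring
  rw [e1, hd] at h
  have h2 : W * ((l.map fun q => c q * T.m q).sum - e * T.m p) ≤ W * 0 := by linarith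
  have := le_of_mul_le_mul_left h2 hW
  linarith

end Groth.Agent.Lib.Helper11.NumType
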