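import Groth.Agent.Lib.Helper11.NumType

set_option autoImplicit false

namespace Groth.Agent.Lib.Helper11.NumType
open Models Finset
variable {n : ℕ} (T : Models.NumericalType n)

theorem two_dvd_sym_sum (f : Fin n → Fin n → ℤ) (hf : ∀ i j, f i j = f j i) (s : Finset (Fin n)) :
    (2 : ℤ) ∣ (∑ i ∈ s, ∑ j ∈ s, f i j) - ∑ i ∈ s, f i i := by
  induction s using Finset.induction_on with
  | empty => simp
  | insert k s hk ih =>
    rw [Finset.sum_insert hk, Finset.sum_insert hk, Finset.sum_insert hk]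
    have e1 : ∑ x ∈ s, ∑ j ∈ insert k s, f x j = ∑ x ∈ s, (f x k + ∑ j ∈ s, f x j) := by
      refine Finset.sum_congr rfl fun x _ => ?_
      rw [Finset.sum_insert hk]
    rw [e1, Finset.sum_add_distrib]
    have e2 : ∑ x ∈ s, f x k = ∑ x ∈ s, f k x := Finset.sum_congr rfl fun x _ => hf x k
    rw [e2]
    obtain ⟨c, hc⟩ := ih
    exact ⟨c + ∑ x ∈ s, f k x, by linarith⟩

theorem two_dvd_sum_m_mul_diag : (2 : ℤ) ∣ ∑ i, T.m i * T.a i i := by
  have h0 : ∑ i, ∑ j, T.m i * T.a i j * T.m j = 0 := by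
    have : ∀ i, ∑ j, T.m i * T.a i j * T.m j = T.m i * ∑ j, T.a i j * T.m j := by
      intro i; rw [Finset.mul_sum]; exact Finset.sum_congr rfl fun j _ => by ring
    simp_rw [this, row_sum T, mul_zero, Finset.sum_const_zero]
  have h1 := two_dvd_sym_sum (fun i j => T.m i * T.a i j * T.m j)
    (fun i j => by show T.m i * T.a i j * T.m j = T.m j * T.a j i * T.m i; rw [a_symm T i j]; ring) univ
  rw [h0, zero_sub, dvd_neg] at h1
  have h2 : (2 : ℤ) ∣ ∑ i, (T.m i * T.a i i * T.m i - T.m i * T.a i i) := by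
    refine Finset.dvd_sum fun i _ => ?_
    have : T.m i * T.a i i * T.m i - T.m i * T.a i i = T.a i i * (T.m i * (T.m i - 1)) := by ring
    rw [this]
    exact Dvd.dvd.mul_left (even_iff_two_dvd.mp (Int.even_mul_pred_self _)) _
  rw [Finset.sum_sub_distrib] at h2
  have := dvd_sub h1 h2
  simpa using this

theorem two_mul_genus :
    2 * T.genus = 2 + ∑ i, T.m i * (2 * T.w i * (T.g i - 1) - T.a i i) := by
  obtain ⟨c, hc⟩ := two_dvd_sum_m_mul_diag T
  have e : ∑ i, T.m i * (2 * T.w i * (T.g i - 1) - T.a i i)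
      = 2 * ∑ i, T.m i * T.w i * (T.g i - 1) - ∑ i, T.m i * T.a i i := by
    rw [Finset.mul_sum, ← Finset.sum_sub_distrib]
    exact Finset.sum_congr rfl fun i _ => by ring
  rw [e, Models.NumericalType.genus, hc]
  rw [Int.mul_ediv_cancel_left _ (by norm_num : (2:ℤ) ≠ 0)]
  ring

theorem contribution_nonneg (hmin : T.IsMinimal) (hn : 1 < n) (i : Fin n) :
    0 ≤ T.m i * (2 * T.w i * (T.g i - 1) - T.a i i) := by
  by_contra h
  exact hmin i (isMinusOne_of_contribution_neg T hn i (lt_of_not_ge h))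

theorem one_le_genus_of_isMinimal (hmin : T.IsMinimal) (hn : 1 < n) : 1 ≤ T.genus := by
  have h := two_mul_genus T
  have : 0 ≤ ∑ i, T.m i * (2 * T.w i * (T.g i - 1) - T.a i i) :=
    Finset.sum_nonneg fun i _ => contribution_nonneg T hmin hn i
  linarith

theorem mul_le_of_pos_offDiag (i j : Fin n) (hij : 0 < T.a i j) :
    T.m i * T.a i j ≤ T.m j * |T.a j j| ∧ T.m i * T.w i ≤ T.m j * |T.a j j| := by
  have hwi : T.w i ≤ T.a i j := Int.le_of_dvd hij (T.w_dvd i j)
  have hmi := T.m_pos i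
  have hmj := T.m_pos j
  have key : T.m i * T.a i j ≤ T.m j * |T.a j j| := by
    by_cases h : i = j
    · subst h
      rw [abs_of_pos hij]
    · have h1 := row_partial_le T j {j, i} (by simp)
      rw [Finset.sum_pair (Ne.symm h)] at h1
      rw [a_symm T j i] at h1
      have : -T.a j j ≤ |T.a j j| := neg_le_abs _
      nlinarith
  refine ⟨key, le_trans ?_ key⟩
  exact mul_le_mul_of_nonneg_left hwi hmi.le

theorem eq_trivial_of_isMinimal_of_genus_zero (hmin : T.IsMinimal) (hg : T.genus = 0) :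
    n = 1 ∧ ∀ i, T.m i = 1 ∧ T.a i i = 0 ∧ T.w i = 1 ∧ T.g i = 0 := by
  have hn1 : n = 1 := by
    have := T.pos
    by_contra h
    have := one_le_genus_of_isMinimal T hmin (by omega)
    omega
  refine ⟨hn1, fun i => ?_⟩
  have hrow := row_sum T i
  have hsingle : ∀ f : Fin n → ℤ, ∑ j, f j = f i := by
    intro f
    apply Finset.sum_eq_single i
    · intro b _ hb
      exact absurd (Fin.ext (by have := b.isLt; have := i.isLt; omega)) hb
    · simp
  rw [hsingle] at hrow
  have ha : T.a i i = 0 := by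
    rcases mul_eq_zero.1 hrow with h | h
    · exact h
    · exact absurd h (T.m_pos i).ne'
  have h2 := two_mul_genus T
  rw [hg, hsingle, ha] at h2
  have hm := T.m_pos i
  have hw := T.w_pos i
  have hgi := T.g_nonneg i
  have hg0 : T.g i = 0 := by
    by_contra hne
    have : 1 ≤ T.g i := by omega
    have := mul_nonneg (mul_nonneg hm.le hw.le) (sub_nonneg.2 this)
    nlinarith
  rw [hg0] at h2
  have hmw : T.m i * T.w i = 1 := by linarith
  have hm1 : T.m i = 1 := Int.eq_one_of_mul_eq_one_right hm.le hmw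
  rw [hm1, one_mul] at hmw
  exact ⟨hm1, ha, hmw, hg0⟩

end Groth.Agent.Lib.Helper11.NumType
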