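import Groth.Agent.Lib.Helper11.NumTypeChain

set_option autoImplicit false

namespace Groth.Agent.Lib.Helper11.NumType
open Models Finset
variable {n : ℕ} (T : Models.NumericalType n)

section long
variable {t : ℕ} (v : Fin t → Fin n) (hv : Function.Injective v) (htn : t < n)
  (h2 : ∀ j, T.IsMinusTwo (v j))
  (hchain : ∀ j j' : Fin t, j'.val = j.val + 1 → T.a (v j) (v j') ≠ 0)
include hv htn h2 hchain

theorem long_zero (j k : Fin t) (hjk : j.val + 1 < k.val) : T.a (v j) (v k) = 0 := by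
  by_contra hz
  have hkt := k.isLt
  refine no_cycle T (L := k.val - j.val + 1) (fun p => v ⟨j.val + p.val, by have := p.isLt; omega⟩)
    ?_ (by omega) (by omega) (fun p => h2 _) ?_
  · intro p q hpq
    have := hv hpq
    simp only [Fin.mk.injEq] at this
    exact Fin.ext (by omega)
  · intro p q hpq
    have hp := p.isLt
    rcases hpq with h | ⟨h1, h2'⟩
    · exact hchain _ _ (by simp only; omega)
    · have e1 : (⟨j.val + p.val, by omega⟩ : Fin t) = k := Fin.ext (by simp only; omega)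
      have e2 : (⟨j.val + q.val, by omega⟩ : Fin t) = j := Fin.ext (by simp only; omega)
      simp only [e1, e2]
      rw [a_symm]; exact hz

theorem window5 (s : ℕ) (hs : s + 5 ≤ t) :
    ES T (v ⟨s + 1, by omega⟩) (v ⟨s + 2, by omega⟩) ∧ ES T (v ⟨s + 2, by omega⟩) (v ⟨s + 3, by omega⟩) ∧
    (ES T (v ⟨s, by omega⟩) (v ⟨s + 1, by omega⟩) ∨ EL T (v ⟨s, by omega⟩) (v ⟨s + 1, by omega⟩) ∨
      ER T (v ⟨s, by omega⟩) (v ⟨s + 1, by omega⟩)) ∧
    (ES T (v ⟨s + 3, by omega⟩) (v ⟨s + 4, by omega⟩) ∨ EL T (v ⟨s + 3, by omega⟩) (v ⟨s + 4, by omega⟩) ∨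
      ER T (v ⟨s + 3, by omega⟩) (v ⟨s + 4, by omega⟩)) := by
  have nd : ∀ a b (ha : s + a < t) (hb : s + b < t), a ≠ b → v ⟨s + a, ha⟩ ≠ v ⟨s + b, hb⟩ :=
    fun a b ha hb hab h => hab (by have := hv h; simp only [Fin.mk.injEq] at this; omega)
  have ed : ∀ a (ha : s + a + 1 < t), T.a (v ⟨s + a, by omega⟩) (v ⟨s + (a + 1), ha⟩) ≠ 0 :=
    fun a ha => hchain _ _ (by simp only; omega)
  obtain ⟨-, hc⟩ := chain5_types T (x0 := v ⟨s + 0, by omega⟩) (x1 := v ⟨s + 1, by omega⟩)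
    (x2 := v ⟨s + 2, by omega⟩) (x3 := v ⟨s + 3, by omega⟩) (x4 := v ⟨s + 4, by omega⟩) (by omega)
    (nd 0 1 _ _ (by decide)) (nd 0 2 _ _ (by decide)) (nd 0 3 _ _ (by decide)) (nd 0 4 _ _ (by decide))
    (nd 1 2 _ _ (by decide)) (nd 1 3 _ _ (by decide)) (nd 1 4 _ _ (by decide)) (nd 2 3 _ _ (by decide))
    (nd 2 4 _ _ (by decide)) (nd 3 4 _ _ (by decide)) (h2 _) (h2 _) (h2 _) (h2 _) (h2 _)
    (ed 0 (by omega)) (ed 1 (by omega)) (ed 2 (by omega)) (ed 3 (by omega))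
  simp only [add_zero] at hc
  rcases hc with ⟨c0, c1, c2, c3⟩ | ⟨c0, c1, c2, c3⟩ | ⟨c0, c1, c2, c3⟩ | ⟨c0, c1, c2, c3⟩ |
    ⟨c0, c1, c2, c3⟩
  · exact ⟨c1, c2, Or.inl c0, Or.inl c3⟩
  · exact ⟨c1, c2, Or.inl c0, Or.inr (Or.inl c3)⟩
  · exact ⟨c1, c2, Or.inl c0, Or.inr (Or.inr c3)⟩
  · exact ⟨c1, c2, Or.inr (Or.inl c0), Or.inl c3⟩
  · exact ⟨c1, c2, Or.inr (Or.inr c0), Or.inl c3⟩

theorem long_interior (ht : 6 ≤ t) (m : ℕ) (hm1 : 1 ≤ m) (hm2 : m + 3 ≤ t) :
    ES T (v ⟨m, by omega⟩) (v ⟨m + 1, by omega⟩) := by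
  by_cases hm : m + 4 ≤ t
  · obtain ⟨c1, -, -, -⟩ := window5 T v hv htn h2 hchain (m - 1) (by omega)
    have e1 : m - 1 + 1 = m := by omega
    have e2 : m - 1 + 2 = m + 1 := by omega
    simp only [e1, e2] at c1
    exact c1
  · obtain ⟨-, c2, -, -⟩ := window5 T v hv htn h2 hchain (m - 2) (by omega)
    have e1 : m - 2 + 2 = m := by omega
    have e2 : m - 2 + 3 = m + 1 := by omega
    simp only [e1, e2] at c2
    exact c2

theorem long_ends_test (ht : 4 ≤ t) (A D B : ℚ) (hA : 0 ≤ A) (hD : 0 < D) (hB : 0 ≤ B)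
    (c0 : 2 * A ≤ ratio T (v ⟨0, by omega⟩) (v ⟨1, by omega⟩) * D)
    (c1 : 2 * D ≤ ratio T (v ⟨1, by omega⟩) (v ⟨0, by omega⟩) * A + D)
    (c2 : 2 * D ≤ D + ratio T (v ⟨t - 2, by omega⟩) (v ⟨t - 1, by omega⟩) * B)
    (c3 : 2 * B ≤ ratio T (v ⟨t - 1, by omega⟩) (v ⟨t - 2, by omega⟩) * D) : False := by
  have R : ∀ (i j : ℕ) (hi : i < t) (hj : j < t), (j = i + 1 ∨ i = j + 1) →
      1 ≤ ratio T (v ⟨i, hi⟩) (v ⟨j, hj⟩) := by
    intro i j hi hj h
    refine ratio_ge_one T (fun e => ?_) ?_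
    · have := hv e; simp only [Fin.mk.injEq] at this; omega
    · rcases h with h | h
      · exact hchain _ _ (by simp only; omega)
      · rw [a_symm]; exact hchain _ _ (by simp only; omega)
  refine no_test T v hv htn h2 (fun p => if p.val = 0 then A else if p.val = t - 1 then B else D)
    ?_ ⟨⟨1, by omega⟩, ?_⟩ ?_
  · intro p; split_ifs <;> linarith
  · simp only; rw [if_neg (by omega), if_neg (by omega)]; exact hD.ne'
  · rintro ⟨p, hp⟩
    by_cases h0 : p = 0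
    · subst h0
      refine ⟨[⟨1, by omega⟩], by simp, by simp, ?_⟩
      simp only [List.map_cons, List.map_nil, List.sum_cons, List.sum_nil, add_zero]
      split_ifs <;> first | contradiction | omega | linarith
    by_cases h1 : p = 1
    · subst h1
      refine ⟨[⟨0, by omega⟩, ⟨2, by omega⟩], by simp, by simp, ?_⟩
      simp only [List.map_cons, List.map_nil, List.sum_cons, List.sum_nil, add_zero]
      have r12 := R 1 2 hp (by omega) (by omega)
      have := mul_le_mul_of_nonneg_right r12 hD.le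
      split_ifs <;> first | contradiction | omega | linarith
    by_cases hl : p = t - 1
    · subst hl
      refine ⟨[⟨t - 2, by omega⟩], by simp, by simp [Fin.ext_iff]; omega, ?_⟩
      simp only [List.map_cons, List.map_nil, List.sum_cons, List.sum_nil, add_zero]
      split_ifs <;> first | contradiction | omega | linarith
    by_cases hl2 : p = t - 2
    · subst hl2
      refine ⟨[⟨t - 3, by omega⟩, ⟨t - 1, by omega⟩], ?_, ?_, ?_⟩
      · simp [Fin.ext_iff]; omega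
      · simp [Fin.ext_iff]; omega
      simp only [List.map_cons, List.map_nil, List.sum_cons, List.sum_nil, add_zero]
      have r := R (t - 2) (t - 3) hp (by omega) (by omega)
      have := mul_le_mul_of_nonneg_right r hD.le
      split_ifs <;> first | contradiction | omega | linarith
    · refine ⟨[⟨p - 1, by omega⟩, ⟨p + 1, by omega⟩], ?_, ?_, ?_⟩
      · simp [Fin.ext_iff]
      · simp [Fin.ext_iff]; omega
      simp only [List.map_cons, List.map_nil, List.sum_cons, List.sum_nil, add_zero]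
      have r1 := R p (p - 1) hp (by omega) (by omega)
      have r2 := R p (p + 1) hp (by omega) (by omega)
      have := mul_le_mul_of_nonneg_right r1 hD.le
      have := mul_le_mul_of_nonneg_right r2 hD.le
      split_ifs <;> first | contradiction | omega | linarith

end long

end Groth.Agent.Lib.Helper11.NumType

namespace Groth.Agent.Lib.Helper11.NumType
open Models Finset
variable {n : ℕ} (T : Models.NumericalType n)

/-- the three bonds at a vertex with three `(-2)`-neighbours are simple -/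
theorem star_simple (hn : 4 < n) {p q1 q2 q3 : Fin n} (d1 : p ≠ q1) (d2 : p ≠ q2) (d3 : p ≠ q3)
    (d12 : q1 ≠ q2) (d13 : q1 ≠ q3) (d23 : q2 ≠ q3)
    (hp : T.IsMinusTwo p) (hq1 : T.IsMinusTwo q1) (hq2 : T.IsMinusTwo q2) (hq3 : T.IsMinusTwo q3)
    (e1 : T.a p q1 ≠ 0) (e2 : T.a p q2 ≠ 0) (e3 : T.a p q3 ≠ 0) :
    T.a q1 p = T.w q1 ∧ T.w p = T.w q1 := by
  have s_ : ∀ x y, T.a x y ≠ 0 → T.a y x ≠ 0 := fun x y h => by rwa [a_symm T]
  have hu : Function.Injective ![q1, p, q2, q3] :=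
    inj4 d1.symm d12 d13 d2 d3 d23
  have h2 : ∀ i, T.IsMinusTwo (![q1, p, q2, q3] i) := fun i => by fin_cases i <;> assumption
  have := d_arm_simple T (s := 1) le_rfl ![q1, p, q2, q3] hu hn h2 (by
    intro i j hi hj h
    have : (i = 0 ∧ j = 1) ∨ (i = 1 ∧ j = 0) ∨ (i = 1 ∧ j = 2) ∨ (i = 2 ∧ j = 1) ∨
        (i = 1 ∧ j = 3) ∨ (i = 3 ∧ j = 1) := by omega
    rcases this with ⟨rfl, rfl⟩ | ⟨rfl, rfl⟩ | ⟨rfl, rfl⟩ | ⟨rfl, rfl⟩ | ⟨rfl, rfl⟩ | ⟨rfl, rfl⟩
    · exact s_ _ _ e1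
    · exact e1
    · exact e2
    · exact s_ _ _ e2
    · exact e3
    · exact s_ _ _ e3)
  exact this

end Groth.Agent.Lib.Helper11.NumType
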