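import Groth.Agent.Lib.Helper11.NumType

set_option autoImplicit false

namespace Groth.Agent.Lib.Helper11.NumType
open Models Finset
variable {n : ℕ} (T : Models.NumericalType n)

theorem sub2 (hn : 2 < n) {i j : Fin n} (hij : i ≠ j) (c0 c1 : ℚ) (hc : c0 ≠ 0 ∨ c1 ≠ 0) :
    (T.a i i : ℚ) * c0 * c0 + T.a i j * c0 * c1 + T.a j i * c1 * c0 + T.a j j * c1 * c1 < 0 := by
  have hv : Function.Injective ![i, j] := by
    intro p q h; fin_cases p <;> fin_cases q <;> simp_all [eq_comm]
  have := subQ_neg T ![i, j] hv hn ![c0, c1] (by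
    rcases hc with h | h
    · exact ⟨0, by simpa using h⟩
    · exact ⟨1, by simpa using h⟩)
  simp [Fin.sum_univ_two] at this; linarith

theorem edge_sq_lt (hn : 2 < n) {i j : Fin n} (hij : i ≠ j) (hi : T.IsMinusTwo i)
    (hj : T.IsMinusTwo j) : T.a i j ^ 2 < 4 * T.w i * T.w j := by
  have hwi := T.w_pos i
  have h := sub2 T hn hij (T.a i j) (2 * T.w i) (Or.inr (by
    have : (0 : ℚ) < T.w i := by exact_mod_cast hwi
    positivity))
  rw [hi.2, hj.2, a_symm T j i] at h
  push_cast at h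
  have h' : (2 * T.w i * (T.a i j ^ 2 - 4 * T.w i * T.w j) : ℚ) < 0 := by linarith
  have h'' : ((T.a i j ^ 2 - 4 * T.w i * T.w j : ℤ) : ℚ) < 0 := by
    have : (0 : ℚ) < 2 * T.w i := by exact_mod_cast (by omega : 0 < 2 * T.w i)
    push_cast
    by_contra hc
    push Not at hc
    nlinarith
  have : T.a i j ^ 2 - 4 * T.w i * T.w j < 0 := by exact_mod_cast h''
  linarith

theorem edge_cases (hn : 2 < n) {i j : Fin n} (hij : i ≠ j) (hi : T.IsMinusTwo i)
    (hj : T.IsMinusTwo j) (ha : T.a i j ≠ 0) :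
    (T.a i j = T.w i ∧ T.w j = T.w i) ∨ (T.a i j = T.w i ∧ T.w i = 2 * T.w j) ∨
      (T.a i j = T.w j ∧ T.w j = 2 * T.w i) ∨ (T.a i j = T.w i ∧ T.w i = 3 * T.w j) ∨
      (T.a i j = T.w j ∧ T.w j = 3 * T.w i) := by
  have hsq := edge_sq_lt T hn hij hi hj
  have hpos := offDiag_pos T hij ha
  have hwi := T.w_pos i
  have hwj := T.w_pos j
  obtain ⟨k, hk⟩ := T.w_dvd i j
  obtain ⟨l, hl⟩ := w_dvd' T i j
  have hk1 : 1 ≤ k := by
    by_contra hc; push Not at hc; nlinarith
  have hl1 : 1 ≤ l := by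
    by_contra hc; push Not at hc; nlinarith
  have hkl : k * l < 4 := by
    have e : T.a i j ^ 2 = k * l * (T.w i * T.w j) := by
      calc T.a i j ^ 2 = (T.w i * k) * (T.w j * l) := by rw [sq]; nth_rewrite 1 [hk]; rw [← hl]
        _ = k * l * (T.w i * T.w j) := by ring
    have hp : 0 < T.w i * T.w j := mul_pos hwi hwj
    by_contra hc; push Not at hc
    nlinarith
  have hk3 : k ≤ 3 := by nlinarith
  have hl3 : l ≤ 3 := by nlinarith
  interval_cases k <;> interval_cases l <;> simp_all <;> omega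

end Groth.Agent.Lib.Helper11.NumType

namespace Groth.Agent.Lib.Helper11.NumType
open Models Finset
variable {n : ℕ} (T : Models.NumericalType n)


end Groth.Agent.Lib.Helper11.NumType

namespace Groth.Agent.Lib.Helper11.NumType
open Models Finset
variable {n : ℕ} (T : Models.NumericalType n)

/-- the ratio `a i j / w j` -/
noncomputable def ratio (i j : Fin n) : ℚ := (T.a i j : ℚ) / T.w j

theorem w_pos_q (i : Fin n) : (0 : ℚ) < T.w i := by exact_mod_cast T.w_pos i

theorem ratio_diag {i : Fin n} (hi : T.IsMinusTwo i) : ratio T i i = -2 := by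
  unfold ratio; rw [hi.2]; have := (w_pos_q T i).ne'; push_cast; field_simp

theorem ratio_nonneg {i j : Fin n} (h : i ≠ j) : 0 ≤ ratio T i j :=
  div_nonneg (by exact_mod_cast T.offDiag_nonneg i j h) (w_pos_q T j).le

theorem ratio_ge_one {i j : Fin n} (h : i ≠ j) (ha : T.a i j ≠ 0) : 1 ≤ ratio T i j := by
  unfold ratio
  rw [le_div_iff₀ (w_pos_q T j), one_mul]
  exact_mod_cast w_le_of_ne_zero' T h ha

theorem ratio_of_eq {i j : Fin n} (c : ℤ) (h : T.a i j = c * T.w j) : ratio T i j = c := by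
  unfold ratio; rw [h]; have := (w_pos_q T j).ne'; push_cast; field_simp

/-- test vector criterion: a nonnegative nonzero vector on a proper set of indices
cannot have all rows nonnegative -/
theorem no_test_vector {k : ℕ} (v : Fin k → Fin n) (hv : Function.Injective v) (hk : k < n)
    (c : Fin k → ℚ) (hc : ∀ p, 0 ≤ c p) (hc0 : ∃ p, c p ≠ 0)
    (hrow : ∀ p, 0 ≤ ∑ q, (T.a (v p) (v q) : ℚ) * c q) : False := by
  have h := subQ_neg T v hv hk c hc0
  have : 0 ≤ ∑ p, ∑ q, (T.a (v p) (v q) : ℚ) * c p * c q := by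
    apply Finset.sum_nonneg; intro p _
    have e : ∑ q, (T.a (v p) (v q) : ℚ) * c p * c q = c p * ∑ q, (T.a (v p) (v q) : ℚ) * c q := by
      rw [Finset.mul_sum]; exact Finset.sum_congr rfl fun q _ => by ring
    rw [e]; exact mul_nonneg (hc p) (hrow p)
  linarith

/-- test vector criterion in ratio form -/
theorem no_test {k : ℕ} (v : Fin k → Fin n) (hv : Function.Injective v) (hk : k < n)
    (h2 : ∀ p, T.IsMinusTwo (v p)) (d : Fin k → ℚ) (hd : ∀ p, 0 ≤ d p) (hd0 : ∃ p, d p ≠ 0)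
    (hN : ∀ p, ∃ l : List (Fin k), l.Nodup ∧ p ∉ l ∧
      2 * d p ≤ (l.map fun q => ratio T (v p) (v q) * d q).sum) : False := by
  refine no_test_vector T v hv hk (fun q => d q / T.w (v q))
    (fun q => div_nonneg (hd q) (w_pos_q T _).le) ?_ ?_
  · obtain ⟨p, hp⟩ := hd0; exact ⟨p, div_ne_zero hp (w_pos_q T _).ne'⟩
  · intro p
    obtain ⟨l, hl, hpl, hsum⟩ := hN p
    have e : ∀ q, (T.a (v p) (v q) : ℚ) * (d q / T.w (v q)) = ratio T (v p) (v q) * d q := by
      intro q; unfold ratio; ring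
    simp_rw [e]
    rw [← Finset.add_sum_erase _ _ (Finset.mem_univ p)]
    rw [ratio_diag T (h2 p)]
    have hsub : (l.map fun q => ratio T (v p) (v q) * d q).sum ≤
        ∑ q ∈ univ.erase p, ratio T (v p) (v q) * d q := by
      rw [← List.sum_toFinset _ hl]
      apply Finset.sum_le_sum_of_subset_of_nonneg
      · intro q hq
        rw [List.mem_toFinset] at hq
        exact Finset.mem_erase.2 ⟨fun h => hpl (h ▸ hq), Finset.mem_univ _⟩
      · intro q hq _
        exact mul_nonneg (ratio_nonneg T (fun h => (Finset.mem_erase.1 hq).1 (hv h).symm)) (hd q)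
    linarith

/-- test vector criterion, simply laced form -/
theorem no_test_simple {k : ℕ} (v : Fin k → Fin n) (hv : Function.Injective v) (hk : k < n)
    (h2 : ∀ p, T.IsMinusTwo (v p)) (d : Fin k → ℚ) (hd : ∀ p, 0 ≤ d p) (hd0 : ∃ p, d p ≠ 0)
    (hN : ∀ p, ∃ l : List (Fin k), l.Nodup ∧ p ∉ l ∧ (∀ q ∈ l, T.a (v p) (v q) ≠ 0) ∧
      2 * d p ≤ (l.map d).sum) : False := by
  refine no_test T v hv hk h2 d hd hd0 fun p => ?_
  obtain ⟨l, hl, hpl, hedge, hsum⟩ := hN p
  refine ⟨l, hl, hpl, le_trans hsum ?_⟩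
  apply List.sum_le_sum
  intro q hq
  have hne : v p ≠ v q := fun h => hpl (by rw [hv h]; exact hq)
  have := ratio_ge_one T hne (hedge q hq)
  nlinarith [hd q]

/-- an edge between `(-2)`-indices with both ratios below two is simple -/
theorem simple_of_ratio_lt (hn : 2 < n) {i j : Fin n} (hij : i ≠ j) (hi : T.IsMinusTwo i)
    (hj : T.IsMinusTwo j) (ha : T.a i j ≠ 0) (h1 : ratio T i j < 2) (h2 : ratio T j i < 2) :
    T.a i j = T.w i ∧ T.w j = T.w i := by
  rcases edge_cases T hn hij hi hj ha with h | ⟨h, h'⟩ | ⟨h, h'⟩ | ⟨h, h'⟩ | ⟨h, h'⟩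
  · exact h
  · exfalso
    have : ratio T i j = (2 : ℤ) := ratio_of_eq T 2 (by rw [h, h'])
    rw [this] at h1; norm_num at h1
  · exfalso
    have : ratio T j i = (2 : ℤ) := ratio_of_eq T 2 (by rw [a_symm T j i, h, h'])
    rw [this] at h2; norm_num at h2
  · exfalso
    have : ratio T i j = (3 : ℤ) := ratio_of_eq T 3 (by rw [h, h'])
    rw [this] at h1; norm_num at h1
  · exfalso
    have : ratio T j i = (3 : ℤ) := ratio_of_eq T 3 (by rw [a_symm T j i, h, h'])
    rw [this] at h2; norm_num at h2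

/-- no cycles of `(-2)`-indices on a proper subset -/
theorem no_cycle {L : ℕ} (u : Fin L → Fin n) (hu : Function.Injective u) (hL : 3 ≤ L) (hLn : L < n)
    (h2 : ∀ p, T.IsMinusTwo (u p))
    (hcyc : ∀ p q : Fin L, (q.val = p.val + 1 ∨ (p.val + 1 = L ∧ q.val = 0)) →
      T.a (u p) (u q) ≠ 0) : False := by
  refine no_test_simple T u hu hLn h2 (fun _ => 1) (fun _ => zero_le_one)
    ⟨⟨0, by omega⟩, one_ne_zero⟩ fun p => ?_
  have hsymm : ∀ p q : Fin L, (q.val = p.val + 1 ∨ (p.val + 1 = L ∧ q.val = 0)) →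
      T.a (u q) (u p) ≠ 0 := fun p q h => by rw [a_symm T]; exact hcyc p q h
  have hp := p.isLt
  by_cases h0 : p.val = 0
  · refine ⟨[⟨1, by omega⟩, ⟨L - 1, by omega⟩], ?_, ?_, ?_, ?_⟩
    · simp [Fin.ext_iff]; omega
    · simp [Fin.ext_iff]; omega
    · intro q hq
      simp only [List.mem_cons, List.not_mem_nil, or_false] at hq
      rcases hq with rfl | rfl
      · exact hcyc p _ (Or.inl (by simp; omega))
      · exact hsymm _ p (Or.inr ⟨by simp; omega, h0⟩)
    · simp; norm_num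
  by_cases hl : p.val + 1 = L
  · refine ⟨[⟨0, by omega⟩, ⟨L - 2, by omega⟩], ?_, ?_, ?_, ?_⟩
    · simp [Fin.ext_iff]; omega
    · simp [Fin.ext_iff]; omega
    · intro q hq
      simp only [List.mem_cons, List.not_mem_nil, or_false] at hq
      rcases hq with rfl | rfl
      · exact hcyc p _ (Or.inr ⟨hl, rfl⟩)
      · exact hsymm _ p (Or.inl (by simp; omega))
    · simp; norm_num
  · refine ⟨[⟨p.val + 1, by omega⟩, ⟨p.val - 1, by omega⟩], ?_, ?_, ?_, ?_⟩
    · simp [Fin.ext_iff]; omega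
    · simp [Fin.ext_iff]; omega
    · intro q hq
      simp only [List.mem_cons, List.not_mem_nil, or_false] at hq
      rcases hq with rfl | rfl
      · exact hcyc p _ (Or.inl rfl)
      · exact hsymm _ p (Or.inl (by simp; omega))
    · simp; norm_num

/-- partial row sums along a duplicate-free list containing the index -/
theorem row_list_le (i : Fin n) (l : List (Fin n)) (hl : l.Nodup) (hi : i ∈ l) :
    (l.map fun j => T.a i j * T.m j).sum ≤ 0 := by
  rw [← List.sum_toFinset _ hl]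
  exact row_partial_le T i _ (List.mem_toFinset.2 hi)

end Groth.Agent.Lib.Helper11.NumType
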